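import Cfsg.Agent.E8A.Reg5.Iface2
import Cfsg.Agent.E8A.Fix.BorAlg

/-!
# The boxes EXT, DER, AMAL, SPEC (helper44)
-/

set_option autoImplicit false

namespace Cfsg.Agent.E8A.Reg5.Alg

open Cfsg Matrix MvPolynomial TensorProduct
open Cfsg.Agent.LangThm (van rk mem_van exists_indep encard_le_rk rk_le_of_algebraic)

universe u

/-- extension of a derivation to the field of fractions -/
theorem exists_der {k P K : Type u} [Field k] [CommRing P] [IsDomain P] [Field K] [Algebra k P] [Algebra k K] [Algebra P K]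
    [IsScalarTower k P K] [IsFractionRing P K] (D : Derivation k P P) :
    ∃ D' : Derivation k K K, ∀ a, D' (algebraMap P K a) = algebraMap P K (D a) := by
  let g0 : P → DualNumber K := fun a =>
    TrivSqZeroExt.inl (algebraMap P K a) + TrivSqZeroExt.inr (algebraMap P K (D a))
  have hg1 : ∀ a, (g0 a).fst = algebraMap P K a := fun a => by
    show (_ + _ : DualNumber K).fst = _
    rw [TrivSqZeroExt.fst_add, TrivSqZeroExt.fst_inl, TrivSqZeroExt.fst_inr, add_zero]
  have hg2 : ∀ a, (g0 a).snd = algebraMap P K (D a) := fun a => by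
    show (_ + _ : DualNumber K).snd = _
    rw [TrivSqZeroExt.snd_add, TrivSqZeroExt.snd_inl, TrivSqZeroExt.snd_inr, zero_add]
  let g : P →+* DualNumber K :=
    { toFun := g0
      map_one' := TrivSqZeroExt.ext (by rw [hg1, map_one]; rfl) (by rw [hg2, D.map_one_eq_zero, map_zero]; rfl)
      map_mul' := fun a b => TrivSqZeroExt.ext (by rw [TrivSqZeroExt.fst_mul, hg1, hg1, hg1, map_mul]) (by
        rw [DualNumber.snd_mul, hg1, hg1, hg2, hg2, hg2, D.leibniz, smul_eq_mul, smul_eq_mul, map_add, map_mul, map_mul,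
          mul_comm (algebraMap P K b)])
      map_zero' := TrivSqZeroExt.ext (by rw [hg1, map_zero]; rfl) (by rw [hg2, map_zero, map_zero]; rfl)
      map_add' := fun a b => TrivSqZeroExt.ext (by rw [hg1, TrivSqZeroExt.fst_add, hg1, hg1, map_add]) (by
        rw [hg2, TrivSqZeroExt.snd_add, hg2, hg2, map_add, map_add]) }
  have hg3 : ∀ a, (g a).fst = algebraMap P K a := hg1
  have hg4 : ∀ a, (g a).snd = algebraMap P K (D a) := hg2
  have hu : ∀ y : nonZeroDivisors P, IsUnit (g y) := by
    intro y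
    rw [TrivSqZeroExt.isUnit_iff_isUnit_fst, hg3]
    exact IsLocalization.map_units K y
  let F : K →+* DualNumber K := IsLocalization.lift hu
  have hF : ∀ a, F (algebraMap P K a) = g a := fun a => IsLocalization.lift_eq hu a
  have hF1 : ∀ z, (F z).fst = z := by
    have h1 : ((TrivSqZeroExt.fstHom K K K).toRingHom.comp F) = RingHom.id K :=
      IsLocalization.ringHom_ext (nonZeroDivisors P) (RingHom.ext fun a => by
        show (F (algebraMap P K a)).fst = algebraMap P K a
        rw [hF, hg3])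
    exact fun z => RingHom.congr_fun h1 z
  have hF2 : ∀ z w, (F (z * w)).snd = z * (F w).snd + w * (F z).snd := by
    intro z w
    rw [map_mul, DualNumber.snd_mul, hF1, hF1, mul_comm (F z).snd]
  refine ⟨Derivation.mk'
    { toFun := fun z => (F z).snd
      map_add' := fun z w => by rw [map_add, TrivSqZeroExt.snd_add]
      map_smul' := fun c z => ?_ } fun z w => hF2 z w, fun a => ?_⟩
  · rw [Algebra.smul_def, hF2, IsScalarTower.algebraMap_apply k P K, hF, hg4, Derivation.map_algebraMap, map_zero,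
      mul_zero, add_zero, RingHom.id_apply, Algebra.smul_def, IsScalarTower.algebraMap_apply k P K]
  · show (F (algebraMap P K a)).snd = _
    rw [hF, hg4]

/-- **EXT** -/
theorem ext : EXT.{u} := by
  intro k Ω _ _ _ T σ _ _ _ x hx
  let K := FractionRing (MvPolynomial σ Ω)
  let b : σ → K := fun s => algebraMap (MvPolynomial σ Ω) K (X s)
  refine ⟨K, inferInstance, inferInstance, IsScalarTower.toAlgHom k Ω K, b, ?_, ?_, fun s => ?_⟩
  · obtain ⟨E, hE⟩ : ∃ E, E = IntermediateField.adjoin k
        (Set.range (Sum.elim b fun t => IsScalarTower.toAlgHom k Ω K (x t))) := ⟨_, rfl⟩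
    have h0 : ∀ t, Sum.elim b (fun t => IsScalarTower.toAlgHom k Ω K (x t)) t ∈ E := fun t => by
      rw [hE]
      exact IntermediateField.subset_adjoin _ _ ⟨t, rfl⟩
    rw [← hE]
    have h1 : ∀ c : Ω, algebraMap Ω K c ∈ E := by
      intro c
      have h2 : IntermediateField.adjoin k (Set.range x) ≤ E.comap (IsScalarTower.toAlgHom k Ω K) := by
        rw [IntermediateField.adjoin_le_iff]
        rintro _ ⟨t, rfl⟩
        exact h0 (Sum.inr t)
      rw [hx] at h2
      exact h2 (IntermediateField.mem_top (x := c))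
    have h2 : ∀ f : MvPolynomial σ Ω, algebraMap (MvPolynomial σ Ω) K f ∈ E := by
      intro f
      induction f using MvPolynomial.induction_on with
      | C c => exact h1 c
      | add f g hf hg =>
        rw [map_add]
        exact add_mem hf hg
      | mul_X f s hf =>
        rw [map_mul]
        exact mul_mem hf (h0 (Sum.inl s))
    rw [eq_top_iff]
    intro z _
    obtain ⟨f, g, -, rfl⟩ := IsFractionRing.div_surjective (MvPolynomial σ Ω) z
    exact div_mem (h2 f) (h2 g)
  · obtain ⟨J, hJ, -, hc⟩ := exists_indep (k := k) x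
    have hb : AlgebraicIndependent Ω b :=
      (MvPolynomial.algebraicIndependent_X σ Ω).map' (f := IsScalarTower.toAlgHom Ω (MvPolynomial σ Ω) K)
        (IsFractionRing.injective (MvPolynomial σ Ω) K)
    have hJ' : AlgebraicIndependent k fun i : J => x i := hJ
    have h1 := hJ'.sumElim_comp hb
    have h2 := encard_le_rk (k := k) (v := Sum.elim b (algebraMap Ω K ∘ fun i : J => x i)) (J := Set.univ)
      (h1.comp _ Subtype.val_injective)
    rw [Set.encard_univ, ENat.card_sum, ENat.card_eq_coe_fintype_card] at h2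
    rw [← hc]
    refine le_trans h2 (Matroid.eRk_mono _ ?_)
    rintro _ ⟨i | i, rfl⟩
    · exact ⟨Sum.inl i, rfl⟩
    · exact ⟨Sum.inr i, rfl⟩
  · obtain ⟨D, hD⟩ := exists_der (K := K) ((pderiv s : Derivation Ω (MvPolynomial σ Ω) _).restrictScalars k)
    refine ⟨D, fun t => ?_⟩
    rw [hD, Derivation.restrictScalars_apply, pderiv_X, Pi.single_apply]
    split_ifs
    · exact map_one _
    · exact map_zero _

theorem der_zero {k K : Type u} [Field k] [Field K] [Algebra k K] (D : Derivation k K K) {S : Set K}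
    (h : ∀ a ∈ S, D a = 0) {z : K} (hz : z ∈ IntermediateField.adjoin k S) : D z = 0 := by
  induction hz using IntermediateField.adjoin_induction with
  | mem a ha => exact h a ha
  | algebraMap c => exact D.map_algebraMap c
  | add a b _ _ ha hb => rw [map_add, ha, hb, add_zero]
  | inv a _ ha => rw [D.leibniz_inv, ha, smul_zero]
  | mul a b _ _ ha hb => rw [D.leibniz, ha, hb, smul_zero, smul_zero, add_zero]

/-- **DER** -/
theorem der : DER.{u} := by
  intro k K _ _ _ T T' _ x y hx h
  let E := IntermediateField.adjoin k (Set.range y)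
  have h1 : Algebra.EssFiniteType k K := IntermediateField.fg_top_iff.1 (by
    rw [← hx]
    exact IntermediateField.fg_adjoin_of_finite (Set.finite_range x))
  have h2 : Algebra.EssFiniteType E K := Algebra.EssFiniteType.of_comp k E K
  have h3 : Subsingleton (KaehlerDifferential E K) := by
    refine (Module.subsingleton_dual_iff K).1 ⟨fun f g => ?_⟩
    suffices h4 : ∀ f : Module.Dual K (KaehlerDifferential E K), f = 0 by rw [h4 f, h4 g]
    intro f
    apply (KaehlerDifferential.linearMapEquivDerivation E K).injective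
    rw [map_zero]
    obtain ⟨D, hD⟩ : ∃ D, D = KaehlerDifferential.linearMapEquivDerivation E K f := ⟨_, rfl⟩
    rw [← hD]
    have h5 := h (D.restrictScalars k) fun t =>
      D.map_algebraMap (⟨y t, IntermediateField.subset_adjoin _ _ ⟨t, rfl⟩⟩ : E)
    ext z
    refine der_zero (D.restrictScalars k) (S := Set.range x) ?_ (by rw [hx]; exact IntermediateField.mem_top)
    rintro _ ⟨t, rfl⟩
    exact h5 t
  have h4 : Algebra.FormallyUnramified E K := ⟨h3⟩
  have h5 := Algebra.FormallyUnramified.isSeparable E K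
  exact rk_le_of_algebraic fun t =>
    IntermediateField.isAlgebraic_adjoin_iff.1 (Algebra.IsAlgebraic.isAlgebraic (R := E) (x t))

theorem exists_amal' (R Ω Ω' : Type u) [CommRing R] [Field Ω] [Field Ω'] [Algebra R Ω] [Algebra R Ω']
    (hg : Function.Injective (algebraMap R Ω)) (hg' : Function.Injective (algebraMap R Ω')) :
    ∃ (K : Type u) (_ : Field K) (f : Ω →+* K) (f' : Ω' →+* K), ∀ a, f (algebraMap R Ω a) = f' (algebraMap R Ω' a) := by
  have hN := Algebra.TensorProduct.nontrivial_of_algebraMap_injective_of_isDomain R Ω Ω' hg hg'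
  obtain ⟨M, hM⟩ := Ideal.exists_maximal (Ω ⊗[R] Ω')
  let _ := Ideal.Quotient.field M
  refine ⟨(Ω ⊗[R] Ω') ⧸ M, inferInstance, (Ideal.Quotient.mk M).comp Algebra.TensorProduct.includeLeftRingHom,
    (Ideal.Quotient.mk M).comp (Algebra.TensorProduct.includeRight (R := R) (A := Ω) (B := Ω')).toRingHom, fun a => ?_⟩
  exact congrArg (Ideal.Quotient.mk M) ((Algebra.TensorProduct.includeRight (R := R) (A := Ω) (B := Ω')).commutes a).symm

theorem exists_amal {R Ω Ω' : Type u} [CommRing R] [Field Ω] [Field Ω'] (g : R →+* Ω) (g' : R →+* Ω')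
    (hg : Function.Injective g) (hg' : Function.Injective g') :
    ∃ (K : Type u) (_ : Field K) (f : Ω →+* K) (f' : Ω' →+* K), ∀ a, f (g a) = f' (g' a) :=
  @exists_amal' R Ω Ω' _ _ _ g.toAlgebra g'.toAlgebra hg hg'

/-- **AMAL** -/
theorem amal : AMAL.{u} := by
  intro k Ω Ω' _ _ _ _ _ T v v' h
  let R := MvPolynomial T k ⧸ van k v
  let g : R →ₐ[k] Ω := Ideal.Quotient.liftₐ _ (aeval v) fun a ha => mem_van.1 ha
  let g' : R →ₐ[k] Ω' := Ideal.Quotient.liftₐ _ (aeval v') fun a ha => mem_van.1 (h ▸ ha)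
  have hg : Function.Injective g := by
    rw [injective_iff_map_eq_zero]
    intro a ha
    obtain ⟨a, rfl⟩ := Ideal.Quotient.mk_surjective a
    exact Ideal.Quotient.eq_zero_iff_mem.2 (mem_van.2 ha)
  have hg' : Function.Injective g' := by
    rw [injective_iff_map_eq_zero]
    intro a ha
    obtain ⟨a, rfl⟩ := Ideal.Quotient.mk_surjective a
    refine Ideal.Quotient.eq_zero_iff_mem.2 ?_
    rw [h]
    exact mem_van.2 ha
  obtain ⟨K, hK, f, f', hf0⟩ := exists_amal g.toRingHom g'.toRingHom hg hg'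
  have hf : ∀ a : R, f (g a) = f' (g' a) := hf0
  let _ : Algebra k K := (f.comp (algebraMap k Ω)).toAlgebra
  refine ⟨K, hK, inferInstance, ⟨f, fun _ => rfl⟩, ⟨f', fun c => ?_⟩, fun t => ?_⟩
  · show f' (algebraMap k Ω' c) = f (algebraMap k Ω c)
    rw [← g.commutes, ← g'.commutes, hf]
  · have h1 := hf (Ideal.Quotient.mk _ (X t))
    have h2 : g (Ideal.Quotient.mk _ (X t)) = v t := aeval_X v t
    have h3 : g' (Ideal.Quotient.mk _ (X t)) = v' t := aeval_X v' t
    rw [h2, h3] at h1
    exact h1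

/-- **SPEC** -/
theorem spec : SPEC.{u} := by
  intro ι _ _ A k K _ _ _ _ T φ φ' x x' h1 h2 h3
  let ψ : MvPolynomial ((ι × ι) ⊕ (ι × ι)) k →ₐ[k] K := aeval (Sum.elim (fun t => x t.1 t.2) fun t => x' t.1 t.2)
  obtain ⟨pt, hpt⟩ := Bor.exists_point (ψ : MvPolynomial ((ι × ι) ⊕ (ι × ι)) k →+* K)
  let e : MvPolynomial ((ι × ι) ⊕ (ι × ι)) k →ₐ[k] k := aeval pt
  have h4 : ∀ M N : Matrix ι ι (MvPolynomial ((ι × ι) ⊕ (ι × ι)) k), M.map ψ = N.map ψ → M.map e = N.map e := by
    intro M N h
    ext a b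
    have h5 : ψ (M a b - N a b) = 0 := by
      rw [map_sub]
      exact sub_eq_zero.2 (congrFun (congrFun h a) b)
    have h6 : e (M a b - N a b) = 0 := by
      rw [← hpt _ h5]
      exact DFunLike.congr_fun (coe_aeval_eq_eval pt) _
    rw [map_sub] at h6
    exact sub_eq_zero.1 h6
  let Y : Matrix ι ι (MvPolynomial ((ι × ι) ⊕ (ι × ι)) k) := Matrix.of fun a b => X (Sum.inl (a, b))
  let Y' : Matrix ι ι (MvPolynomial ((ι × ι) ⊕ (ι × ι)) k) := Matrix.of fun a b => X (Sum.inr (a, b))
  have hY : Y.map ψ = x := by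
    ext a b
    exact aeval_X _ _
  have hY' : Y'.map ψ = x' := by
    ext a b
    exact aeval_X _ _
  have h5 : ∀ (S : Type u) [CommRing S] [Algebra k S] (f : MvPolynomial ((ι × ι) ⊕ (ι × ι)) k →ₐ[k] S) (j : ι),
      (ad A (Y *ᵥ Pi.single j 1) * Y).map f = ad A (Y.map f *ᵥ Pi.single j 1) * Y.map f ∧
      (Y * ad A (Pi.single j 1)).map f = Y.map f * ad A (Pi.single j 1) := by
    intro S _ _ f j
    have e1 : (fun l => f ((Pi.single j 1 : ι → MvPolynomial ((ι × ι) ⊕ (ι × ι)) k) l)) = Pi.single j 1 := by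
      funext l
      rw [Pi.single_apply, Pi.single_apply]
      split_ifs
      · exact map_one f
      · exact map_zero f
    have e2 := ad_map (A := A) (f : MvPolynomial ((ι × ι) ⊕ (ι × ι)) k →+* S) (Y *ᵥ Pi.single j 1)
    have e3 := ad_map (A := A) (f : MvPolynomial ((ι × ι) ⊕ (ι × ι)) k →+* S) (Pi.single j 1)
    rw [mulVec_map] at e2
    rw [amap_mul, amap_mul]
    exact ⟨congrArg (· * Y.map f) (e2.trans (congrArg (fun z => ad A (Y.map f *ᵥ z)) e1)),
      congrArg (Y.map f * ·) (e3.trans (congrArg (ad A) e1))⟩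
  refine ⟨Y.map e, Y'.map e, ?_, tw_of_basis fun j => ?_, fun t => ?_⟩
  · rw [← amap_mul, ← amap_one e]
    refine h4 _ _ ?_
    rw [amap_mul, amap_one, hY, hY', h1]
  · rw [one_smul, ← (h5 k e j).1, ← (h5 k e j).2]
    refine h4 _ _ ?_
    rw [(h5 K ψ j).1, (h5 K ψ j).2, hY, h2, one_smul]
  · have h6 := h4 (fk _ (φ' t) * Y) (Y * fk _ (φ t)) (by rw [amap_mul, amap_mul, fk_map, fk_map, hY, h3])
    rw [amap_mul, amap_mul, fk_map, fk_map] at h6
    exact h6

end Cfsg.Agent.E8A.Reg5.Alg
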