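import Cfsg.Agent.E8A.Reg5.Iface
import Cfsg.Agent.E8A.Reg5.AutLat
import Cfsg.Agent.E8A.Fix.Jor
import Cfsg.Agent.E8A.Fix.Bor
import Cfsg.Agent.E8A.Fix.FrmTor

/-!
# The box AUT: the automorphisms of the algebra of type `E₈` in characteristic at least 7 (helper44)
-/

set_option autoImplicit false
set_option linter.unusedSectionVars false
set_option maxRecDepth 100000

namespace Cfsg.Agent.E8A.Reg5.Aut

open Cfsg Cfsg.Lie CoxeterSystem Matrix
open Cfsg.Agent.ChevalleyStructure Cfsg.Agent.ChevalleyStructure.JacMain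
open Cfsg.Agent.ChevalleyStructure.CoxeterGeom Cfsg.Agent.ChevalleyStructure.CoxeterGeomTypes
open Cfsg.Agent.ChevalleyStructure.LieAut Cfsg.Agent.ChevalleyStructure.LieAbs
open Cfsg.Agent.Tits.Roots Cfsg.Agent.Nodes.Reps Cfsg.Agent.Nodes.BNOf Cfsg.Agent.Nodes.RGDChev
open Cfsg.Agent.H129.TorusChar
open Cfsg.Agent.H942.E8Tab (e8T)
open Cfsg.Agent.E8A.Frm (B0 fm8 finW8 hom_ext invB8)
open Cfsg.Agent.H288.E8L (wt wt_inl wt_inr rt_vec vec_ne_zero exists_idx wt_inj)

universe u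

variable {K : Type u} [Field K]

/-- an automorphism of the algebra together with its inverse -/
structure IsAut (b b' : Matrix chevE8.Idx chevE8.Idx K) : Prop where
  mul : b * b' = 1
  ad : ∀ x : L8 K, b * adm x = adm (b *ᵥ x) * b

namespace IsAut

variable {b b' c c' : Matrix chevE8.Idx chevE8.Idx K}

theorem mul' (h : IsAut b b') : b' * b = 1 := mul_eq_one_comm.1 h.mul

theorem cancel (h : IsAut b b') (x : L8 K) : b *ᵥ (b' *ᵥ x) = x := by
  rw [Matrix.mulVec_mulVec, h.mul, Matrix.one_mulVec]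

theorem cancel' (h : IsAut b b') (x : L8 K) : b' *ᵥ (b *ᵥ x) = x := by
  rw [Matrix.mulVec_mulVec, h.mul', Matrix.one_mulVec]

theorem symm (h : IsAut b b') : IsAut b' b := by
  refine ⟨h.mul', fun x => ?_⟩
  have h1 := h.ad (b' *ᵥ x)
  rw [h.cancel] at h1
  calc b' * adm x = b' * (adm x * b) * b' := by rw [Matrix.mul_assoc, Matrix.mul_assoc, h.mul, Matrix.mul_one]
    _ = adm (b' *ᵥ x) * b' := by rw [← h1, ← Matrix.mul_assoc, h.mul', Matrix.one_mul]

theorem trans (h : IsAut b b') (h2 : IsAut c c') : IsAut (b * c) (c' * b') := by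
  refine ⟨?_, fun x => ?_⟩
  · rw [Matrix.mul_assoc, ← Matrix.mul_assoc c, h2.mul, Matrix.one_mul, h.mul]
  · rw [Matrix.mul_assoc, h2.ad, ← Matrix.mul_assoc, h.ad, Matrix.mulVec_mulVec, Matrix.mul_assoc]

theorem map_br (h : IsAut b b') (x y : L8 K) : b *ᵥ br x y = br (b *ᵥ x) (b *ᵥ y) := by
  unfold br
  rw [Matrix.mulVec_mulVec, h.ad, Matrix.mulVec_mulVec]

end IsAut

theorem isAut_mx (g : G8 K) : IsAut (mx g) (mx g⁻¹) := ⟨mx_mul_inv g, adm_conj g⟩

theorem br_TT {x h : L8 K} (hx : InT x) (hh : InT h) : br x h = 0 := by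
  funext i
  rw [br_T hx, Pi.zero_apply]
  rcases i with i | r
  · rw [wt_inl, map_zero, zero_mul]
  · rw [hh r, mul_zero]

/-- step 1: the Cartan subalgebra -/
theorem exists_normal [IsAlgClosed K] {a a' : Matrix chevE8.Idx chevE8.Idx K} (h : IsAut a a') :
    ∃ g : G8 K, (∀ x, InT x → InT ((mx g * a) *ᵥ x)) ∧ ∀ x, InT x → InT ((a' * mx g⁻¹) *ᵥ x) := by
  obtain ⟨h0, hT, hreg⟩ := Bor.exists_reg chevE8 (Bor.car_ne K)
  have hT' : InT h0 := hT
  obtain ⟨g1, hg1⟩ := Bor.borel K (a *ᵥ h0)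
  obtain ⟨g2, hg2⟩ := jord K _ hg1
  rw [← act_mul] at hg2
  obtain ⟨g, hg⟩ : ∃ g, g = g2 * g1 := ⟨_, rfl⟩
  rw [← hg] at hg2
  have hY := (isAut_mx g).trans h
  obtain ⟨Y, hYe⟩ : ∃ Y, Y = mx g * a := ⟨_, rfl⟩
  obtain ⟨Y', hYe'⟩ : ∃ Y', Y' = a' * mx g⁻¹ := ⟨_, rfl⟩
  have hx : Jor (Y *ᵥ h0) := by
    rw [hYe, ← Matrix.mulVec_mulVec]
    exact hg2
  rw [← hYe, ← hYe'] at hY
  refine ⟨g, ?_⟩
  rw [← hYe, ← hYe']
  have h1 := hY.ad h0
  have h2 : Y * (diagonal (fun i => rl h0 (wt i)) + 0) =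
      (diagonal (fun i => rl (tp (Y *ᵥ h0)) (wt i)) + adm (Y *ᵥ h0 - tp (Y *ᵥ h0))) * Y := by
    rw [add_zero, ← adm_T hT', ← adm_split, h1]
  have h3 := diag_conj_of IsNilpotent.zero (nilp_adm (sub_tp_mem hx.1)) (Commute.zero_right _) hx.commute h2
  rw [← adm_T hT', ← adm_T (inT_tp _), h1] at h3
  have h4 : Y *ᵥ h0 = tp (Y *ᵥ h0) := by
    apply adm_injective
    calc adm (Y *ᵥ h0) = adm (Y *ᵥ h0) * Y * Y' := by rw [Matrix.mul_assoc, hY.mul, Matrix.mul_one]
      _ = adm (tp (Y *ᵥ h0)) := by rw [h3, Matrix.mul_assoc, hY.mul, Matrix.mul_one]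
  have h5 : InT (Y *ᵥ h0) := by rw [h4]; exact inT_tp _
  have h6 : ∀ x, InT x → InT (Y' *ᵥ x) := by
    intro x hx' r
    have h7 := hY.symm.map_br (Y *ᵥ h0) x
    rw [br_TT h5 hx', Matrix.mulVec_zero, hY.cancel'] at h7
    have h8 := congrFun h7 (Sum.inr r)
    rw [br_T hT', wt_inr, rl_vec, Pi.zero_apply] at h8
    exact (mul_eq_zero.1 h8.symm).resolve_left (hreg r)
  refine ⟨fun x hx' => ?_, h6⟩
  let f : ↥(LS K {0}) →ₗ[K] ↥(LS K {0}) :=
    (Matrix.mulVecLin Y').restrict fun y hy => inT_iff.1 (h6 y (inT_iff.2 hy))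
  have hf : Function.Injective f := by
    intro y z hyz
    have h7 : Y' *ᵥ y.1 = Y' *ᵥ z.1 := congrArg Subtype.val hyz
    apply Subtype.ext
    rw [← hY.cancel y.1, h7, hY.cancel]
  obtain ⟨y, hy⟩ := LinearMap.injective_iff_surjective.1 hf ⟨x, inT_iff.1 hx'⟩
  have h7 : Y' *ᵥ y.1 = x := congrArg Subtype.val hy
  rw [← h7, hY.cancel]
  exact inT_iff.2 y.2

theorem norm_wt (i : chevE8.Idx) : B0 (wt i) (wt i) ≤ 2 := by
  rcases i with i | r
  · rw [wt_inl, map_zero]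
    norm_num
  · exact le_of_eq (fm8.self (rt_vec r))

theorem eq_of_rl (p : ℕ) [CharP K p] (hp : 7 ≤ p) {a b : Q8} (ha : B0 a a ≤ 20) (hb : B0 b b ≤ 2)
    (h : ∀ h : L8 K, InT h → rl h a = rl h b) : a = b := by
  have h1 := norm_sub_le a b
  exact sub_eq_zero.1 (sepK (K := K) p hp (by omega) fun x hx => by rw [map_sub, h x hx, sub_self])

/-- step 2: the root vectors -/
theorem exists_perm (p : ℕ) [CharP K p] (hp : 7 ≤ p) {b b' : Matrix chevE8.Idx chevE8.Idx K} (h : IsAut b b')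
    (h2 : ∀ x, InT x → InT (b' *ᵥ x)) (r : Fin chevE8.nroots) : ∃ (s : Fin chevE8.nroots) (c : K),
      b *ᵥ ee K (Sum.inr r) = c • ee K (Sum.inr s) ∧ ∀ x, InT x → rv s x = rv r (b' *ᵥ x) := by
  obtain ⟨y, hy⟩ : ∃ y, y = b *ᵥ ee K (Sum.inr r) := ⟨_, rfl⟩
  have h3 : ∀ x, InT x → ∀ i, y i ≠ 0 → rl x (wt i) = rv r (b' *ᵥ x) := by
    intro x hx i hi
    have h4 := h.map_br (b' *ᵥ x) (ee K (Sum.inr r))
    rw [br_T_ee (h2 x hx), Matrix.mulVec_smul, h.cancel, ← hy] at h4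
    have h5 := congrFun h4 i
    rw [br_T hx, Pi.smul_apply, smul_eq_mul] at h5
    exact (mul_right_cancel₀ hi h5).symm
  have h4 : ∃ s, y (Sum.inr s) ≠ 0 := by
    by_contra hc
    push Not at hc
    have h5 := h2 y hc r
    rw [hy, h.cancel', ee_self] at h5
    exact one_ne_zero h5
  obtain ⟨s, hs⟩ := h4
  refine ⟨s, y (Sum.inr s), ?_, fun x hx => ?_⟩
  · rw [← hy]
    refine eq_smul_ee fun i hi => ?_
    exact eq_of_rl (K := K) p hp ((norm_wt i).trans (by norm_num)) (norm_wt (Sum.inr s)) fun x hx => by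
      rw [h3 x hx i hi]
      exact (h3 x hx _ hs).symm
  · rw [← h3 x hx _ hs, wt_inr, rl_vec]

/-- the map induced on the root lattice -/
theorem exists_lat (p : ℕ) [CharP K p] (hp : 7 ≤ p) {b b' : Matrix chevE8.Idx chevE8.Idx K} (h : IsAut b b')
    (h2 : ∀ x, InT x → InT (b' *ᵥ x)) : ∃ G : Q8 →+ Q8, (∀ a, Rt a → Rt (G a)) ∧
      ∀ x, InT x → ∀ a, rl x (G a) = rl (b' *ᵥ x) a := by
  choose π c hc hπ using exists_perm p hp h h2
  let G : Q8 →+ Q8 := AddMonoidHom.mk' (fun x : Q8 => ∑ i, x i • vec chevE8 8 (π (si i))) fun y z => by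
    rw [← Finset.sum_add_distrib]
    exact Finset.sum_congr rfl fun i _ => by rw [Pi.add_apply, add_smul]
  have hG : ∀ j, G (sr j) = vec chevE8 8 (π (si j)) := by
    intro j
    show ∑ i, (sr j : Q8) i • vec chevE8 8 (π (si i)) = _
    rw [Finset.sum_eq_single j]
    · rw [sr_self, one_smul]
    · intro i _ hi
      rw [sr_ne hi, zero_smul]
    · intro hj
      exact absurd (Finset.mem_univ j) hj
  have h3 : ∀ x, InT x → ∀ a, rl x (G a) = rl (b' *ᵥ x) a := by
    intro x hx a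
    refine DFunLike.congr_fun (additive_ext (f := (rl x).comp G) (g := rl (b' *ᵥ x)) fun i => ?_) a
    show rl x (G (sr i)) = _
    rw [hG, rl_vec, hπ _ x hx, ← vec_si, rl_vec]
  refine ⟨G, fun a ha => root_ind (P := fun a => Rt (G a)) (fun i => ?_) (fun i a ha ih => ?_) ha, h3⟩
  · show Rt (G (sr i))
    rw [hG]
    exact rt_vec _
  · have h4 : ∀ a', Rt a' → B0 (G a') (G a') ≤ 20 → Rt (G a') := by
      intro a' ha' hn
      obtain ⟨r, rfl⟩ := exists_idx ha'
      rw [eq_of_rl (K := K) p hp hn (norm_wt (Sum.inr (π r))) fun x hx => by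
        rw [h3 x hx, wt_inr, rl_vec, rl_vec, hπ _ x hx]]
      exact rt_vec _
    have h5 := fm8.self ih
    have h6 : B0 (G (sr i)) (G (sr i)) = 2 := by
      rw [hG]
      exact fm8.self (rt_vec _)
    have h7 := ha.act (cs8.simple i)
    show Rt (G (rp8 (cs8.simple i) a))
    rw [rep_simple_eq] at h7 ⊢
    rcases pairing_cases ha i with e | e | e | e | e
    · have e2 : pairing (cartanOf chevE8 8) i a = 2 := by rw [← B0_sr, ← e, fm8.self ha]
      have e3 : a - (2 : ℤ) • sr i = -a := by rw [← e, two_smul]; abel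
      rw [e2, e3, map_neg]
      exact ih.neg
    · have e1 : sr i = -a := by rw [e, neg_neg]
      have e2 : pairing (cartanOf chevE8 8) i a = -2 := by
        rw [← B0_sr, e1, map_neg, LinearMap.neg_apply, fm8.self ha]
      have e3 : a - (-2 : ℤ) • sr i = -a := by rw [e1, neg_smul, two_smul]; abel
      rw [e2, e3, map_neg]
      exact ih.neg
    · rw [e, zero_smul, sub_zero]
      exact ih
    · rw [e, one_smul] at h7 ⊢
      refine h4 _ h7 ?_
      have h8 := norm_sub_le (G a) (G (sr i))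
      rw [map_sub G]
      omega
    · rw [e, neg_smul, one_smul] at h7 ⊢
      refine h4 _ h7 ?_
      have h8 := norm_sub_le (G a) (-G (sr i))
      have h9 : B0 (-G (sr i)) (-G (sr i)) = 2 := by
        rw [map_neg, map_neg, LinearMap.neg_apply, neg_neg, h6]
      rw [map_sub G, map_neg G]
      omega

/-- correction by an element of `N` -/
theorem exists_fix (p : ℕ) [CharP K p] (hp : 7 ≤ p) {b b' : Matrix chevE8.Idx chevE8.Idx K} (h : IsAut b b')
    (h1 : ∀ x, InT x → InT (b *ᵥ x)) (h2 : ∀ x, InT x → InT (b' *ᵥ x)) :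
    ∃ n : G8 K, ∀ x, InT x → (mx n⁻¹ * b') *ᵥ x = x := by
  obtain ⟨G, hG, hGl⟩ := exists_lat p hp h h2
  obtain ⟨G', hG', hGl'⟩ := exists_lat p hp h.symm h1
  have e1 : ∀ x, G (G' x) = x := fun x => DFunLike.congr_fun (hom_ext (f := G.comp G') (g := AddMonoidHom.id Q8)
    fun i => eq_of_rl (K := K) p hp ((le_of_eq (fm8.self (hG _ (hG' _ (rt_sr i))))).trans (by norm_num))
      (le_of_eq (fm8.self (rt_sr i))) fun y hy => by
        show rl y (G (G' (sr i))) = rl y (sr i)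
        rw [hGl y hy, hGl' _ (h2 y hy), h.cancel]) x
  have e2 : ∀ x, G' (G x) = x := fun x => DFunLike.congr_fun (hom_ext (f := G'.comp G) (g := AddMonoidHom.id Q8)
    fun i => eq_of_rl (K := K) p hp ((le_of_eq (fm8.self (hG' _ (hG _ (rt_sr i))))).trans (by norm_num))
      (le_of_eq (fm8.self (rt_sr i))) fun y hy => by
        show rl y (G' (G (sr i))) = rl y (sr i)
        rw [hGl' y hy, hGl _ (h1 y hy), h.cancel']) x
  obtain ⟨v, hv⟩ := exists_weyl (G := ⟨⟨G, G', e2, e1⟩, G.map_add⟩) hG hG'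
  obtain ⟨n, hn⟩ := exists_rp cs8 (nsysK K) v
  refine ⟨n, fun x hx => ?_⟩
  rw [← Matrix.mulVec_mulVec]
  have h3 : InT (act n⁻¹ (b' *ᵥ x)) := RepK.inT (w := v⁻¹) hn.inv (h2 x hx)
  refine inT_ext h3 hx fun i => ?_
  have h4 := RepK.rl hn h3 (sr i)
  rw [act_inv', ← hGl x hx] at h4
  have h5 : G (rp8 v (sr i)) = sr i := hv (sr i)
  exact h4.symm.trans (congrArg (rl x) h5)

theorem adm_ee (k i j : chevE8.Idx) : adm (ee K k) i j = ((adA chevE8 k i j : ℤ) : K) := by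
  unfold adm ee
  rw [adv_single_one]
  rfl

/-- step 3: automorphisms which fix the Cartan subalgebra pointwise -/
theorem exists_tor (p : ℕ) [CharP K p] (hp : 7 ≤ p) {b b' : Matrix chevE8.Idx chevE8.Idx K} (h : IsAut b b')
    (h2 : ∀ x, InT x → b' *ᵥ x = x) : ∃ t : G8 K, mx t = b := by
  have h3 : ∀ i : chevE8.Idx, ∃ c : K, (∀ j, i = Sum.inl j → c = 1) ∧ b *ᵥ ee K i = c • ee K i := by
    intro i
    rcases i with i | r
    · refine ⟨1, fun _ _ => rfl, ?_⟩
      have h4 : InT (ee K (Sum.inl i)) := fun s => ee_ne (by simp)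
      rw [one_smul]
      conv_lhs => rw [← h2 _ h4, h.cancel]
    · obtain ⟨s, c, hc, hs⟩ := exists_perm p hp h (fun x hx => by rwa [h2 x hx]) r
      have h4 : s = r := vec_injective (eq_of_rl (K := K) p hp ((norm_wt (Sum.inr s)).trans (by norm_num))
        (norm_wt (Sum.inr r)) fun x hx => by rw [rl_vec, rl_vec, hs x hx, h2 x hx])
      rw [h4] at hc
      exact ⟨c, fun j hj => (by cases hj), hc⟩
  choose d hd1 hd using h3
  have hb : b = diagonal d := by
    ext i j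
    rw [← mulVec_ee b j i, hd, Pi.smul_apply, ee_apply, smul_eq_mul]
    by_cases e : i = j
    · rw [if_pos e, e, Matrix.diagonal_apply_eq, mul_one]
    · rw [if_neg e, Matrix.diagonal_apply_ne _ e, mul_zero]
  have hd0 : ∀ i, d i ≠ 0 := by
    intro i h0
    have h4 := h.cancel' (ee K i)
    rw [hd, h0, zero_smul, Matrix.mulVec_zero] at h4
    exact ee_ne_zero i h4.symm
  have h4 : ∀ k i j, ((adA chevE8 k i j : ℤ) : K) ≠ 0 → d i = d k * d j := by
    intro k i j hne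
    have h5 := congrFun (congrFun (h.ad (ee K k)) i) j
    rw [hd, adm_smul, hb, Matrix.diagonal_mul, Matrix.mul_diagonal, Matrix.smul_apply, adm_ee, smul_eq_mul] at h5
    refine mul_right_cancel₀ hne ?_
    rw [h5]
    ring
  have hφ := IsMC.of_prod (fun i => d (Sum.inr (si i))) fun i => hd0 _
  obtain ⟨φ, hφe⟩ : ∃ φ : Q8 → K, φ = fun x => ∏ i, d (Sum.inr (si i)) ^ x i := ⟨_, rfl⟩
  rw [← hφe] at hφ
  have h5 : ∀ j, φ (sr j) = d (Sum.inr (si j)) := by
    intro j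
    rw [hφe]
    show ∏ i, d (Sum.inr (si i)) ^ (sr j : Q8) i = _
    rw [Finset.prod_eq_single j]
    · rw [sr_self, zpow_one]
    · intro i _ hi
      rw [sr_ne hi, zpow_zero]
    · intro hj
      exact absurd (Finset.mem_univ j) hj
  have h6 : ∀ a, Rt a → ∀ r : Fin chevE8.nroots, vec chevE8 8 r = a → d (Sum.inr r) = φ a := by
    intro a ha
    refine root_ind (P := fun a => ∀ r : Fin chevE8.nroots, vec chevE8 8 r = a → d (Sum.inr r) = φ a)
      (fun i r hr => ?_) (fun i a ha ih r hr => ?_) ha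
    · rw [h5, vec_injective (hr.trans (vec_si i).symm)]
    · obtain ⟨r0, rfl⟩ := exists_idx ha
      have h7 := ih r0 rfl
      have h8 : vec chevE8 8 r = -vec chevE8 8 r0 → d (Sum.inr r) = φ (-vec chevE8 8 r0) := by
        intro e
        obtain ⟨j, hj⟩ := exists_adA_ng (K := K) r0
        have h9 := h4 _ _ _ hj
        rw [hd1 _ j rfl, ← vec_injective (e.trans (vec_ng r0).symm), h7] at h9
        rw [hφ.neg]
        exact eq_inv_of_mul_eq_one_right h9.symm
      rw [rep_simple_eq] at hr ⊢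
      rcases pairing_cases ha i with e | e | e | e | e
      · have e2 : pairing (cartanOf chevE8 8) i (vec chevE8 8 r0) = 2 := by rw [← B0_sr, ← e, fm8.self ha]
        have e3 : vec chevE8 8 r0 - (2 : ℤ) • sr i = -vec chevE8 8 r0 := by rw [← e, two_smul]; abel
        rw [e2, e3] at hr ⊢
        exact h8 hr
      · have e1 : sr i = -vec chevE8 8 r0 := by rw [e, neg_neg]
        have e2 : pairing (cartanOf chevE8 8) i (vec chevE8 8 r0) = -2 := by
          rw [← B0_sr, e1, map_neg, LinearMap.neg_apply, fm8.self ha]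
        have e3 : vec chevE8 8 r0 - (-2 : ℤ) • sr i = -vec chevE8 8 r0 := by rw [e1, neg_smul, two_smul]; abel
        rw [e2, e3] at hr ⊢
        exact h8 hr
      · rw [e, zero_smul, sub_zero] at hr ⊢
        exact ih r hr
      · rw [e, one_smul] at hr ⊢
        have h9 := h4 _ _ _ (adA_ne (K := K) i (r := r) (u := r0) (by rw [hr]; abel))
        rw [hφ.sub, ← h7, h9, h5, mul_div_cancel_left₀ _ (hd0 _)]
      · rw [e, neg_smul, one_smul, sub_neg_eq_add] at hr ⊢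
        have h9 := h4 _ _ _ (adA_ne (K := K) i (r := r0) (u := r) (by rw [hr, add_comm]))
        rw [hφ.add, ← h7, h9, h5, mul_comm]
  obtain ⟨t, ht, htφ⟩ := exists_cX e8T invB8 one_ne_zero hφ fun i => ⟨_, pow_one _⟩
  refine ⟨t, ?_⟩
  rw [mx_TT ht, hb]
  congr 1
  funext i
  rw [htφ]
  rcases i with i | r
  · rw [wt_inl, hφ.zero, hd1 _ i rfl]
  · exact (h6 _ (rt_vec r) r rfl).symm

/-- **AUT** -/
theorem aut : AUT.{u} := by
  intro K _ _ p _ hp a a' h0 h1
  have h : IsAut a a' := ⟨h0, h1⟩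
  obtain ⟨g, hg, hg'⟩ := exists_normal h
  have hY := (isAut_mx g).trans h
  obtain ⟨n, hn⟩ := exists_fix p hp hY hg hg'
  obtain ⟨t, ht⟩ := exists_tor p hp (hY.trans (isAut_mx n)) hn
  refine ⟨g⁻¹ * t * n⁻¹, ?_⟩
  rw [mx_mul, mx_mul, ht, ← Matrix.mul_assoc, ← Matrix.mul_assoc, mx_inv_mul, Matrix.one_mul, Matrix.mul_assoc,
    mx_mul_inv, Matrix.mul_one]

end Cfsg.Agent.E8A.Reg5.Aut
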