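import Cfsg.Agent.E8A.Reg5.Fin1
import Cfsg.Agent.E8A.Fix.Basic2

/-!
# The box FIN, part 2: the assembly (helper43)
-/

set_option autoImplicit false
set_option linter.unusedSectionVars false
set_option maxRecDepth 100000

namespace Cfsg.Agent.E8A.Reg5.Fin

open Cfsg Cfsg.Lie Matrix MvPolynomial Ico
open Cfsg.Agent.LangThm (van rk mem_van rk_le_of_van_le)

universe u

section Gen

variable {ι : Type} [Fintype ι] [DecidableEq ι] {A : ι → Matrix ι ι ℤ}
variable {k : Type u} [Field k]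
variable {Γ P : Type} [Group Γ] [Fintype Γ] [Fintype P] {π : Γ →* A5}
variable {I : Ico k Γ P π} {d : Fin 3 → ι → ℤ} {φ φ' : Γ →* Matrix ι ι k}

theorem rk_le_map {K K' : Type u} [Field K] [Field K'] [Algebra k K] [Algebra k K'] (e : K →ₐ[k] K') {T : Type}
    (y : T → K) : rk k y ≤ rk k fun t => e (y t) := by
  refine rk_le_of_van_le fun p hp => ?_
  rw [mem_van] at hp ⊢
  apply (e : K →+* K').injective
  rw [map_zero, ← hp]
  exact (MvPolynomial.comp_aeval_apply y e p)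

/-- the generic data -/
theorem exists_dat (hT : TRIV.{u}) (hE : EXT.{u}) (hD : DER.{u}) (hG : Good A k) (hd : ∀ i, GrB A (d i) (mm i))
    (hφ : Rep A I φ) (hf : ∀ v : ι → k, (∀ γ, φ γ *ᵥ v = v) → v = 0) (hc : Cnt d)
    (h3 : ∀ (K : Type u) [Field K] [Algebra k K] (h : ι → K), ad A h * ad A h * ad A h = ad A h → h = 0)
    {c c' : Fin 3 → Matrix ι ι k} (hcc : ∀ i, c i * c' i = 1) (ht : ∀ i, Tw A 1 (c i))
    (he : ∀ i, φ (I.g i) * c i = c i * diagonal fun a => I.ζ i ^ d i a)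
    {Ω : Type u} [Field Ω] [Algebra k Ω] {g g' : Option (Fin 3) → Matrix ι ι Ω} (h1 : ∀ c, g c * g' c = 1)
    (h2 : ∀ c, Tw A 1 (g c)) (h4 : ∀ i, Sh (d i) (· ≤ 0) (g (some i))) (h5 : ∀ i, Sh (d i) (· ≤ 0) (g' (some i)))
    (h6 : IntermediateField.adjoin k (Set.range (coM g)) = ⊤) :
    ∃ (K : Type u) (_ : Field K) (_ : IsAlgClosed K) (_ : Algebra k K) (U V : Fin 3 → Matrix ι ι K)
      (Φ : Matrix ι ι (Fm K)) (h h' : Option (Fin 3) → Matrix ι ι K), Dat A I d φ U V Φ h h' ∧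
      (Fintype.card (Par d) : ℕ∞) + rk k (coM g) ≤ rk k (co3 (gam A I d U Φ h)) := by
  obtain ⟨K, _, _, j, b, e1, e2, e3⟩ := hE k Ω (Option (Fin 3) × ι × ι) (Par d) (coM g) h6
  have hF := frm_uu (I := I) hG hd hcc ht he b
  obtain ⟨Φ, hΦ⟩ := hT ι A k K Γ P π I d φ _ _ hG hd hφ hF hf (h3 K) hc (mov_uu hG hd c' e3)
  have H : Dat A I d φ (uu A k c' b) (vv A k c b) Φ (fun c => (g c).map j) (fun c => (g' c).map j) :=
    ⟨hF, hΦ, fun c => by rw [← amap_mul, h1, amap_one], fun c => (h2 c).map1 (j : Ω →+* K), fun i => (h4 i).map j,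
      fun i => (h5 i).map j⟩
  have h7 := hD k K _ _ (Sum.elim b fun t => j (coM g t)) (co3 (gam A I d (uu A k c' b) Φ fun c => (g c).map j)) e1 (by
    intro D hD0
    obtain ⟨h8, h9⟩ := H.rigid hG hd hφ hf D fun i a e => hD0 (i, a, e)
    rintro (t | t)
    · exact h8 t
    · exact h9 t.1 t.2.1 t.2.2)
  let e : K →ₐ[k] AlgebraicClosure K := IsScalarTower.toAlgHom k K (AlgebraicClosure K)
  refine ⟨AlgebraicClosure K, inferInstance, inferInstance, inferInstance, _, _, _, _, _, H.map e, ?_⟩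
  refine (e2.trans h7).trans ((rk_le_map e _).trans (le_of_eq ?_))
  congr 1
  funext t
  exact congrFun (congrFun (gam_map e _ _ _ t.1) t.2.1) t.2.2

end Gen

/-- the matrices of the group elements -/
noncomputable def mxH (k : Type u) [Field k] : G8 k →* Matrix chevE8.Idx chevE8.Idx k :=
  (Units.coeHom _).comp (chevE8.group k).subtype

theorem tw_mx {k : Type u} [Field k] (g : G8 k) : Tw A8 1 (mx g) := fun x => by
  rw [one_smul]
  exact (adm_conj g x).symm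

theorem aut_of_tw (hA : AUT.{u}) {K : Type u} [Field K] [IsAlgClosed K] (p : ℕ) [CharP K p] (hp : 7 ≤ p)
    {a a' : Matrix chevE8.Idx chevE8.Idx K} (h : a * a' = 1) (ht : Tw A8 1 a) : ∃ g : G8 K, mx g = a :=
  hA K p hp a a' h fun x => by
    have h1 := ht x
    rw [one_smul] at h1
    exact h1.symm

/-- **FIN** -/
theorem fin : FIN.{u} := by
  intro hT hI hP hE hD hAm hS hIco hA hN hC hGen F _ _ p _ hp φ φ' hφ hφ'
  obtain ⟨Γ, P, _, _, _, π, ⟨I⟩⟩ := hIco (Kb F) p hp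
  obtain ⟨hG, hd, hc, h26⟩ := hI
  have hG := hG (Kb F) p hp
  obtain ⟨Ω, _, _, g, g', g1, g2, g3, g4, g5, g6⟩ := hP (Kb F)
  have hrep : ∀ ψ : A5 →* G8 (Kb F), Rep A8 I (((mxH (Kb F)).comp ψ).comp π) := fun ψ =>
    ⟨fun γ => tw_mx (ψ (π γ)), by rw [MonoidHom.comp_apply, I.π_z, map_one]⟩
  have key : ∀ ψ : A5 →* G8 (Kb F), NoFix ψ → ∃ (K : Type u) (_ : Field K) (_ : Algebra (Kb F) K)
      (U V : Fin 3 → Matrix chevE8.Idx chevE8.Idx K) (Φ : Matrix chevE8.Idx chevE8.Idx (Fm K))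
      (h h' : Option (Fin 3) → Matrix chevE8.Idx chevE8.Idx K) (γ : Fin 3 → G8 K),
      Dat A8 I lam (((mxH (Kb F)).comp ψ).comp π) U V Φ h h' ∧ (∀ i, mx (γ i) = gam A8 I lam U Φ h i) ∧
        744 ≤ rk (Kb F) (co3 fun i => mx (γ i)) := by
    intro ψ hψ
    choose c hc' using fun i => hC F p hp ψ hψ i (π (I.g i)) (I.ζ i) (I.ord i) (I.prim i)
    obtain ⟨K, _, _, _, U, V, Φ, h, h', H, hr⟩ := exists_dat (I := I) hT hE hD hG hd (hrep ψ) (fun v hv => hψ v fun a => by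
        obtain ⟨γ, rfl⟩ := I.surj a
        exact hv γ) hc (fun K _ _ h hh => by
        have := charP_of_injective_algebraMap (algebraMap (Kb F) K).injective p
        exact hN K p hp h hh) (c := fun i => mx (c i)) (c' := fun i => mx (c i)⁻¹) (fun i => mx_mul_inv (c i))
      (fun i => tw_mx (c i)) hc' g1 g2 g3 g4 g5
    have := charP_of_injective_algebraMap (algebraMap (Kb F) K).injective p
    choose γ hγ using fun i => aut_of_tw hA p hp (H.gam_tw hG hd i).2 (H.gam_tw hG hd i).1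
    refine ⟨K, inferInstance, inferInstance, U, V, Φ, h, h', γ, H, hγ, ?_⟩
    rw [show (fun i => mx (γ i)) = gam A8 I lam U Φ h from funext hγ]
    refine le_trans ?_ hr
    rw [h26]
    calc (744 : ℕ∞) = ((26 : ℕ) : ℕ∞) + 718 := by norm_num
      _ ≤ _ := add_le_add le_rfl g6
  obtain ⟨K, _, _, U, V, Φ, h, h', γ, H, e, hr⟩ := key φ hφ
  obtain ⟨K', _, _, U', V', Φ', l, l', γ', H', e', hr'⟩ := key φ' hφ'
  obtain ⟨L, _, _, f, f', hf⟩ := hAm (Kb F) K K' _ _ _ (hGen (Kb F) K K' γ γ' hr hr')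
  obtain ⟨h1, h2, -, h3⟩ := Dat.glue hG hd (hrep φ) (H.map f) (H'.map f') fun i => by
    rw [← gam_map, ← gam_map, ← e, ← e']
    ext a b
    exact hf (i, a, b)
  obtain ⟨y, y', h4, h5, h6⟩ := hS _ A8 (Kb F) L Γ _ _ _ _ h1 h2 h3
  obtain ⟨x, hx⟩ := aut_of_tw hA p hp h4 h5
  refine ⟨x, fun a => mx_injective ?_⟩
  obtain ⟨t, rfl⟩ := I.surj a
  rw [mx_mul, mx_mul, hx]
  exact (h6 t).symm

end Cfsg.Agent.E8A.Reg5.Fin
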