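import Cfsg.Agent.E8A.Reg5.IcoEx

/-!
# The icosahedral group on the projective line: the orbits (helper8)
-/

set_option autoImplicit false

namespace Cfsg.Agent.E8A.Reg5.IcoEx

open Matrix Cfsg.Agent.Lib.VonDyck

universe u

variable {k : Type u} [Field k] {Γ : Type} [Group Γ]

/-- the stabilizer of a line -/
def St (ρ : Γ →* SpecialLinearGroup (Fin 2) k) (u : Fin 2 → k) : Subgroup Γ where
  carrier := {γ | ∃ c : kˣ, (ρ γ).1 *ᵥ u = (c : k) • u}
  mul_mem' := by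
    rintro a b ⟨c, hc⟩ ⟨d, hd⟩
    exact ⟨c * d, by rw [map_mul, val_mul, ← mulVec_mulVec, hd, mulVec_smul, hc, smul_smul, Units.val_mul, mul_comm]⟩
  one_mem' := ⟨1, by rw [map_one, val_one, one_mulVec, Units.val_one, one_smul]⟩
  inv_mem' := by
    rintro a ⟨c, hc⟩
    refine ⟨c⁻¹, ?_⟩
    have h : (ρ a⁻¹).1 *ᵥ ((ρ a).1 *ᵥ u) = u := by
      rw [mulVec_mulVec, ← val_mul, ← map_mul, inv_mul_cancel, map_one, val_one, one_mulVec]
    rw [hc, mulVec_smul] at h
    nth_rewrite 2 [← h]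
    rw [smul_smul, Units.inv_mul, one_smul]

theorem mem_St {ρ : Γ →* SpecialLinearGroup (Fin 2) k} {u : Fin 2 → k} {γ : Γ} :
    γ ∈ St ρ u ↔ ∃ c : kˣ, (ρ γ).1 *ᵥ u = (c : k) • u := Iff.rfl

theorem mem_St_of {ρ : Γ →* SpecialLinearGroup (Fin 2) k} {u : Fin 2 → k} (hu : u ≠ 0) {γ : Γ} {c : k}
    (h : (ρ γ).1 *ᵥ u = c • u) : γ ∈ St ρ u := by
  have h0 : c ≠ 0 := by
    rintro rfl
    exact mulVec_ne_zero (ρ γ) hu (by rw [h, zero_smul])
  exact ⟨Units.mk0 c h0, h⟩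

theorem rho_inv (ρ : Γ →* SpecialLinearGroup (Fin 2) k) (γ : Γ) (u : Fin 2 → k) :
    (ρ γ⁻¹).1 *ᵥ ((ρ γ).1 *ᵥ u) = u := by
  rw [mulVec_mulVec, ← val_mul, ← map_mul, inv_mul_cancel, map_one, val_one, one_mulVec]

theorem rho_mul (ρ : Γ →* SpecialLinearGroup (Fin 2) k) (γ δ : Γ) (u : Fin 2 → k) :
    (ρ (γ * δ)).1 *ᵥ u = (ρ γ).1 *ᵥ ((ρ δ).1 *ᵥ u) := by
  rw [mulVec_mulVec, ← val_mul, ← map_mul]

theorem St_smul (ρ : Γ →* SpecialLinearGroup (Fin 2) k) (u : Fin 2 → k) {a : k} (ha : a ≠ 0) :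
    St ρ (a • u) = St ρ u := by
  ext γ
  simp only [mem_St, mulVec_smul]
  refine exists_congr fun c => ?_
  rw [smul_comm]
  exact (smul_right_injective _ ha).eq_iff

theorem St_conj (ρ : Γ →* SpecialLinearGroup (Fin 2) k) (u : Fin 2 → k) (δ : Γ) :
    St ρ u = (St ρ ((ρ δ).1 *ᵥ u)).comap (MulAut.conj δ).toMonoidHom := by
  ext γ
  rw [Subgroup.mem_comap, mem_St, mem_St]
  refine exists_congr fun c => ?_
  show _ ↔ (ρ (δ * γ * δ⁻¹)).1 *ᵥ _ = _
  rw [rho_mul, rho_inv, rho_mul, ← mulVec_smul]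
  constructor
  · intro h; rw [h]
  · intro h
    rw [← rho_inv ρ δ ((ρ γ).1 *ᵥ u), h, rho_inv]

theorem index_St_conj (ρ : Γ →* SpecialLinearGroup (Fin 2) k) (u : Fin 2 → k) (δ : Γ) :
    (St ρ ((ρ δ).1 *ᵥ u)).index = (St ρ u).index := by
  rw [St_conj ρ u δ, Subgroup.index_comap_of_surjective _ (MulAut.conj δ).surjective]

theorem a5_cases : ∀ a : A5, a ^ 2 = 1 ∨ a ^ 3 = 1 ∨ a ^ 5 = 1 := by decide +kernel

theorem mm_prime (i : Fin 3) : (mm i).Prime := by
  fin_cases i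
  · exact Nat.prime_two
  · exact Nat.prime_three
  · exact Nat.prime_five

theorem mo_inj : Function.Injective mo := by decide

namespace Bin

variable {π : Γ →* A5} {ρ : Γ →* SpecialLinearGroup (Fin 2) k} {z : Γ}

theorem z_ne (B : Bin k Γ π ρ z) (h2 : (2 : k) ≠ 0) : z ≠ 1 := by
  rintro rfl
  have h := B.ρ_z
  rw [map_one, val_one] at h
  have h1 := congrFun (congrFun h 0) 0
  rw [Matrix.neg_apply, one_apply_eq] at h1
  exact h2 (by linear_combination h1)

theorem π_z (B : Bin k Γ π ρ z) : π z = 1 := (B.ker z).2 (Or.inr rfl)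

theorem card (B : Bin k Γ π ρ z) (h2 : (2 : k) ≠ 0) : Nat.card Γ = 120 := by
  have h1 : Nat.card π.ker = 2 := by
    have h : (π.ker : Set Γ) = {1, z} := Set.ext fun γ => B.ker γ
    show Nat.card (π.ker : Set Γ) = 2
    rw [h, Nat.card_coe_set_eq, Set.ncard_pair (B.z_ne h2).symm]
  rw [← π.ker.index_mul_card, h1, Subgroup.index_ker, MonoidHom.range_eq_top.2 B.surj, Subgroup.card_top,
    card_alternating5]

theorem eq_one (B : Bin k Γ π ρ z) (h2 : (2 : k) ≠ 0) (h : ((120 : ℕ) : k) ≠ 0) {u : Fin 2 → k} (hu : u ≠ 0) {γ : Γ}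
    (hγ : (ρ γ).1 *ᵥ u = u) : γ = 1 := by
  apply B.inj
  rw [map_one]
  refine eq_one_of_fix _ hu hγ h ?_
  rw [← map_pow, ← B.card h2, pow_card_eq_one', map_one]

theorem rho_z (B : Bin k Γ π ρ z) (u : Fin 2 → k) : (ρ z).1 *ᵥ u = (-1 : k) • u := by
  rw [B.ρ_z, neg_mulVec, one_mulVec, neg_one_smul]

theorem sq_iff (B : Bin k Γ π ρ z) (h2 : (2 : k) ≠ 0) (h : ((120 : ℕ) : k) ≠ 0) {u : Fin 2 → k} (hu : u ≠ 0) {γ : Γ}
    {c : k} (hγ : (ρ γ).1 *ᵥ u = c • u) : c ^ 2 = 1 ↔ π γ = 1 := by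
  constructor
  · intro hc
    rcases sq_eq_one_iff.1 hc with rfl | rfl
    · rw [B.eq_one h2 h hu (hγ.trans (one_smul _ _)), map_one]
    · have h1 : z * γ = 1 := B.eq_one h2 h hu (by rw [rho_mul, hγ, B.rho_z, smul_smul]; simp)
      have h3 := congrArg π h1
      rwa [map_mul, B.π_z, one_mul, map_one] at h3
  · intro h1
    rcases (B.ker γ).1 h1 with rfl | rfl
    · rw [map_one, val_one, one_mulVec] at hγ
      have h3 : (1 : k) = c := smul_left_injective k hu (by simpa using hγ)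
      rw [← h3, one_pow]
    · rw [B.rho_z] at hγ
      have h3 : (-1 : k) = c := smul_left_injective k hu hγ
      rw [← h3, neg_one_sq]

theorem ker_le (B : Bin k Γ π ρ z) (u : Fin 2 → k) : π.ker ≤ St ρ u := by
  intro γ hγ
  rcases (B.ker γ).1 hγ with rfl | rfl
  · exact one_mem _
  · exact ⟨-1, by rw [B.rho_z]; simp⟩

theorem cyclic (B : Bin k Γ π ρ z) (h2 : (2 : k) ≠ 0) (h : ((120 : ℕ) : k) ≠ 0) {u : Fin 2 → k} (hu : u ≠ 0) :
    IsCyclic (St ρ u) := by
  have : Finite Γ := Nat.finite_of_card_ne_zero (by rw [B.card h2]; norm_num)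
  choose c hc using fun γ : St ρ u => mem_St.1 γ.2
  let ev : St ρ u →* k :=
    { toFun := fun γ => c γ
      map_one' := smul_left_injective k hu (by
        show _ • u = _ • u
        rw [← hc, Subgroup.coe_one, map_one, val_one, one_mulVec, one_smul])
      map_mul' := fun a b => smul_left_injective k hu (by
        show _ • u = _ • u
        rw [← hc, Subgroup.coe_mul, rho_mul, hc, mulVec_smul, hc, smul_smul, mul_comm]) }
  refine isCyclic_of_injective_ringHom ev ((injective_iff_map_eq_one _).2 fun γ hγ => Subtype.ext ?_)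
  have h1 : (c γ : k) = 1 := hγ
  exact B.eq_one h2 h hu (by rw [hc, h1, one_smul])

theorem index_eq (B : Bin k Γ π ρ z) (u : Fin 2 → k) : (St ρ u).index * Nat.card ((St ρ u).map π) = 60 := by
  rw [← card_alternating5, ← ((St ρ u).map π).index_mul_card, Subgroup.index_map, sup_eq_left.2 (B.ker_le u),
    MonoidHom.range_eq_top.2 B.surj, Subgroup.index_top, mul_one]

theorem index_some (B : Bin k Γ π ρ z) (h2 : (2 : k) ≠ 0) (h : ((120 : ℕ) : k) ≠ 0) {u : Fin 2 → k} (hu : u ≠ 0)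
    {g : Γ} (hg : g ∈ St ρ u) {m : ℕ} (hm : m.Prime) (ho : orderOf (π g) = m) : (St ρ u).index * m = 60 := by
  obtain ⟨g0, hg0⟩ := (B.cyclic h2 h hu).exists_generator
  have h1 : St ρ u = Subgroup.zpowers (g0 : Γ) := by
    refine le_antisymm (fun γ hγ => ?_) ((Subgroup.zpowers_le).2 g0.2)
    obtain ⟨n, hn⟩ := hg0 ⟨γ, hγ⟩
    exact ⟨n, congrArg Subtype.val hn⟩
  have h3 : (St ρ u).map π = Subgroup.zpowers (π g0) := by
    conv_lhs => rw [h1]
    exact MonoidHom.map_zpowers _ _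
  have h4 : m ∣ orderOf (π g0) := by
    rw [← ho]
    exact orderOf_dvd_of_mem_zpowers (h3 ▸ Subgroup.mem_map_of_mem π hg)
  have h5 : ∀ q : ℕ, q.Prime → π g0 ^ q = 1 → orderOf (π g0) = m := fun q hq e => by
    have h6 := orderOf_dvd_of_pow_eq_one e
    have h7 : m = q := (Nat.prime_dvd_prime_iff_eq hm hq).1 (h4.trans h6)
    exact Nat.dvd_antisymm (h7 ▸ h6) h4
  have h6 : orderOf (π g0) = m := by
    rcases a5_cases (π g0) with e | e | e
    · exact h5 _ Nat.prime_two e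
    · exact h5 _ Nat.prime_three e
    · exact h5 _ Nat.prime_five e
  rw [← B.index_eq u, h3, Nat.card_zpowers, h6]

theorem exists_free [Infinite k] (B : Bin k Γ π ρ z) (h2 : (2 : k) ≠ 0) (h : ((120 : ℕ) : k) ≠ 0) :
    ∃ u : Fin 2 → k, u ≠ 0 ∧ St ρ u = π.ker := by
  have : Finite Γ := Nat.finite_of_card_ne_zero (by rw [B.card h2]; norm_num)
  have hne : ∀ t : k, (![1, t] : Fin 2 → k) ≠ 0 := fun t e => by simpa using congrFun e 0
  have h1 : ∀ γ : {γ : Γ // π γ ≠ 1}, Set.Finite {t : k | γ.1 ∈ St ρ ![1, t]} := by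
    rintro ⟨γ, hγ⟩
    let M := (ρ γ).1
    let f : Polynomial k := Polynomial.C (M 1 0) + Polynomial.C (M 1 1 - M 0 0) * Polynomial.X -
      Polynomial.C (M 0 1) * Polynomial.X ^ 2
    have hf : ∀ t, f.eval t = dt ![1, t] (M *ᵥ ![1, t]) := fun t => by
      simp [f, dt, mulVec, dotProduct, Fin.sum_univ_two]; ring
    have h0 : f ≠ 0 := by
      intro e
      have e0 := hf 0
      have e1 := hf 1
      have e2 := hf (-1)
      rw [e] at e0 e1 e2
      simp [dt, mulVec, dotProduct, Fin.sum_univ_two] at e0 e1 e2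
      have e3 : M 0 1 = 0 := (mul_eq_zero.1 (show 2 * M 0 1 = 0 by linear_combination e1 + e2 - 2 * e0)).resolve_left h2
      have e4 : M 1 1 = M 0 0 := by linear_combination e0 - e1 + e3
      have e5 : M.det = 1 := (ρ γ).2
      rw [det_fin_two, e3, e4] at e5
      refine hγ ((B.sq_iff h2 h (hne 0) (c := M 0 0) ?_).1 (by linear_combination e5))
      ext i
      fin_cases i <;> simp [M, mulVec, dotProduct, Fin.sum_univ_two]
      exact e0.symm
    refine (Polynomial.finite_setOfPred_isRoot h0).subset fun t ht => ?_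
    obtain ⟨c, hc⟩ := mem_St.1 ht
    show f.eval t = 0
    rw [hf, hc, dt_smul_right, dt_self, mul_zero]
  obtain ⟨t, ht⟩ := (Set.finite_iUnion h1).infinite_compl.nonempty
  refine ⟨![1, t], hne t, le_antisymm (fun γ hγ => ?_) (B.ker_le _)⟩
  by_contra h3
  exact ht (Set.mem_iUnion.2 ⟨⟨γ, h3⟩, hγ⟩)

end Bin

theorem ico : ICO.{u} := by
  intro k _ _ p _ hp
  have hp' : p.Prime := (CharP.char_is_prime_or_zero k p).resolve_right (by omega)
  have hn : ∀ n : ℕ, n ∣ 120 → (n : k) ≠ 0 := fun n hn e => by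
    have h1 : p ∣ 2 * 2 * 2 * 3 * 5 := ((CharP.cast_eq_zero_iff k p n).1 e).trans hn
    simp only [hp'.dvd_mul] at h1
    rcases h1 with (((h1 | h1) | h1) | h1) | h1 <;> have := Nat.le_of_dvd (by norm_num) h1 <;> omega
  have h2 : (2 : k) ≠ 0 := by simpa using hn 2 (by norm_num)
  have h : ((120 : ℕ) : k) ≠ 0 := hn 120 dvd_rfl
  obtain ⟨Γ, _, _, π, ρ, z, B⟩ := exists_bin (k := k)
  let a : Fin 3 → A5 := ![a5, b5, a5 * b5]
  have ha : ∀ i, orderOf (a i) = mm i := fun i => by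
    have : Fact (mm i).Prime := ⟨mm_prime i⟩
    refine orderOf_eq_prime ?_ ?_ <;> revert i <;> decide +kernel
  choose g hg using fun i => B.surj (a i)
  choose u0 hu0 c0 hc0 using fun i => exists_eigen (ρ (g i)).1
  obtain ⟨u1, hu1, hs1⟩ := B.exists_free h2 h
  let u : Option (Fin 3) → Fin 2 → k := fun c => c.elim u1 u0
  have hu : ∀ c, u c ≠ 0 := by rintro (_ | i); exacts [hu1, hu0 i]
  have hidx : ∀ c, (St ρ (u c)).index * mo c = 60 := by
    rintro (_ | i)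
    · show (St ρ u1).index * 1 = 60
      rw [hs1, Subgroup.index_ker, MonoidHom.range_eq_top.2 B.surj, Subgroup.card_top, card_alternating5]
    · exact B.index_some h2 h (hu0 i) (mem_St_of (hu0 i) (hc0 i)) (mm_prime i) (by rw [hg, ha]; rfl)
  let P : Type := Σ c : Option (Fin 3), Γ ⧸ St ρ (u c)
  have : Finite P := inferInstance
  let v : P → Fin 2 → k := fun x => (ρ x.2.out).1 *ᵥ u x.1
  have hv : ∀ x, v x ≠ 0 := fun x => mulVec_ne_zero _ (hu _)
  let mv : Γ → P → P := fun γ x => ⟨x.1, γ • x.2⟩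
  have hsc : ∀ γ x, ∃ c : kˣ, (ρ γ).1 *ᵥ v x = (c : k) • v (mv γ x) := by
    rintro γ ⟨c, q⟩
    have h1 : ((γ • q).out)⁻¹ * (γ * q.out) ∈ St ρ (u c) := by
      rw [← QuotientGroup.eq, QuotientGroup.out_eq', ← smul_eq_mul, ← MulAction.Quotient.smul_mk,
        QuotientGroup.out_eq']
    obtain ⟨d, hd⟩ := h1
    refine ⟨d, ?_⟩
    show (ρ γ).1 *ᵥ ((ρ q.out).1 *ᵥ u c) = (d : k) • ((ρ (γ • q).out).1 *ᵥ u c)
    rw [← mulVec_smul, ← hd, ← rho_mul, ← rho_mul, mul_inv_cancel_left]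
  choose sc hsc using hsc
  let b : Option (Fin 3) → P := fun c => ⟨c, ((1 : Γ) : Γ ⧸ St ρ (u c))⟩
  have hb : ∀ c γ, mv γ (b c) = b c ↔ γ ∈ St ρ (u c) := fun c γ => by
    show (⟨c, γ • ((1 : Γ) : Γ ⧸ St ρ (u c))⟩ : P) = ⟨c, _⟩ ↔ _
    rw [Sigma.mk.inj_iff, heq_eq_eq, MulAction.Quotient.smul_mk, eq_comm (b := ((1 : Γ) : Γ ⧸ St ρ (u c))),
      QuotientGroup.eq]
    simp
  have hgv : ∀ i, (ρ (g i)).1 *ᵥ v (b (some i)) = (sc (g i) (b (some i)) : k) • v (b (some i)) := fun i => by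
    rw [hsc, (hb _ _).2 (mem_St_of (hu0 i) (hc0 i))]
  have hpow : ∀ i n, (ρ (g i ^ n)).1 *ᵥ v (b (some i)) = (sc (g i) (b (some i)) : k) ^ n • v (b (some i)) := by
    intro i n
    induction n with
    | zero => rw [pow_zero, pow_zero, map_one, val_one, one_mulVec, one_smul]
    | succ n ih => rw [pow_succ, pow_succ, rho_mul, hgv, mulVec_smul, ih, smul_smul, mul_comm]
  have hprim : ∀ i, IsPrimitiveRoot ((sc (g i) (b (some i)) : k) ^ 2) (mm i) := fun i => by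
    have h1 : ∀ n, ((sc (g i) (b (some i)) : k) ^ 2) ^ n = 1 ↔ mm i ∣ n := fun n => by
      rw [← pow_mul, mul_comm, pow_mul, B.sq_iff h2 h (hv _) (hpow i n), map_pow, hg, ← ha,
        orderOf_dvd_iff_pow_eq_one]
    exact ⟨(h1 _).2 dvd_rfl, fun n hn => (h1 n).1 hn⟩
  choose w hw1 hw2 using fun i => exists_second (ρ (g i)) (hv _) (hgv i) ((hprim i).ne_one (mm_prime i).one_lt)
  let _ : Fintype P := Fintype.ofFinite P
  refine ⟨Γ, P, inferInstance, inferInstance, inferInstance, π, ⟨{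
    ρ := ρ
    surj := B.surj
    card := by rw [← Nat.card_eq_fintype_card, B.card h2]; exact h
    perf := B.perf
    cl := fun x => x.1
    v := v
    indep := ?_
    cnt := fun c => ?_
    mv := mv
    sc := fun γ x => sc γ x
    sc_ne := fun γ x => (sc γ x).ne_zero
    mv_cl := fun _ _ => rfl
    mv_inj := ?_
    mv_v := hsc
    b := b
    b_cl := fun _ => rfl
    trans := ?_
    g := g
    η := fun i => sc (g i) (b (some i))
    w := w
    g_v := hgv
    g_w := hw1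
    dt_vw := hw2
    prim := hprim
    ord := fun i => by rw [hg, ha]
    z := z
    z_ne := B.z_ne h2
    ρ_z := B.ρ_z
    π_z := B.π_z
    free := fun γ hγ => (B.ker γ).1 (by
      have h1 : γ ∈ St ρ u1 := (hb none γ).1 hγ
      rwa [hs1] at h1) }⟩⟩
  · rintro ⟨c, q⟩ ⟨c', q'⟩ hne e
    obtain ⟨d, hd⟩ := (dt_eq_zero_iff (hv _) _).1 e
    have hd0 : d ≠ 0 := by
      rintro rfl
      exact hv _ (hd.trans (zero_smul _ _))
    have h1 : (ρ (q.out⁻¹ * q'.out)).1 *ᵥ u c' = d • u c := by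
      rw [rho_mul]
      show (ρ q.out⁻¹).1 *ᵥ v ⟨c', q'⟩ = _
      rw [hd, mulVec_smul]
      show d • ((ρ q.out⁻¹).1 *ᵥ ((ρ q.out).1 *ᵥ u c)) = _
      rw [rho_inv]
    have h3 : (St ρ (u c)).index = (St ρ (u c')).index := by
      rw [← index_St_conj ρ (u c') (q.out⁻¹ * q'.out), h1, St_smul ρ _ hd0]
    have h4 : c = c' := by
      have e1 := hidx c
      have e2 := hidx c'
      rw [← h3, ← e1] at e2
      refine mo_inj (Nat.eq_of_mul_eq_mul_left (Nat.pos_of_ne_zero fun e0 => ?_) e2).symm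
      rw [e0] at e1
      omega
    subst h4
    apply hne
    have h5 : q = q' := by
      rw [← QuotientGroup.out_eq' q, ← QuotientGroup.out_eq' q', QuotientGroup.eq]
      exact mem_St_of (hu c) h1
    rw [h5]
  · rw [← Fintype.card_subtype, ← Nat.card_eq_fintype_card, Nat.card_congr (Equiv.sigmaSubtype c)]
    exact hidx c
  · rintro γ ⟨c, q⟩ ⟨c', q'⟩ e
    obtain ⟨rfl, e1⟩ := Sigma.mk.inj_iff.1 e
    exact congrArg (Sigma.mk c) (MulAction.injective γ (eq_of_heq e1))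
  · rintro ⟨c, q⟩
    refine ⟨q.out, ?_⟩
    show (⟨c, q.out • ((1 : Γ) : Γ ⧸ St ρ (u c))⟩ : P) = ⟨c, q⟩
    rw [MulAction.Quotient.smul_mk, smul_eq_mul, mul_one, QuotientGroup.out_eq']

end Cfsg.Agent.E8A.Reg5.IcoEx
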