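import Cfsg.Agent.E8A.Reg5.Iface
import Cfsg.Agent.E8A.Fix.Basic2
import Cfsg.Agent.Lib.VonDyck
import Cfsg.Agent.S1054

/-!
# The box END5 (helper8)
-/

set_option autoImplicit false
set_option maxRecDepth 100000

namespace Cfsg.Agent.E8A.Reg5.End

open Cfsg Cfsg.Lie Matrix
open Cfsg.Agent.H952.F4 (MaxAlt)
open Cfsg.Agent.Lib.VonDyck (a5 b5)

universe u

variable {F : Type u} [Field F]

theorem noFix_emb0 {φ : A5 →* G8 F} (h : NoFix φ) : NoFix ((emb0 (F := F)).comp φ) := by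
  intro v hv
  funext i
  refine (Module.forall_dual_apply_eq_zero_iff F (v i)).1 fun l => ?_
  refine congrFun (h (fun j => l (v j)) fun a => funext fun j => ?_) i
  have h1 := congrFun (hv a) j
  rw [act_apply] at h1 ⊢
  rw [← h1, map_sum]
  refine Finset.sum_congr rfl fun k _ => ?_
  rw [← smul_eq_mul, ← map_smul, Algebra.smul_def]
  rfl

theorem noFix_of_emb0 {φ : A5 →* G8 F} (h : NoFix ((emb0 (F := F)).comp φ)) : NoFix φ := by
  intro v hv
  apply mp0_injective
  rw [h (mp0 v) fun a => by rw [MonoidHom.comp_apply, act_emb0, hv]]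
  exact (mp_zero _).symm

/-- the elements with entries in a subfield -/
def ent {K : Type u} [Field K] (E : Subfield K) : Subgroup (G8 K) where
  carrier := {g | (∀ i j, mx g i j ∈ E) ∧ ∀ i j, mx g⁻¹ i j ∈ E}
  mul_mem' := by
    rintro a b ⟨h1, h2⟩ ⟨h3, h4⟩
    refine ⟨fun i j => ?_, fun i j => ?_⟩
    · rw [mx_mul, Matrix.mul_apply]
      exact sum_mem fun k _ => mul_mem (h1 _ _) (h3 _ _)
    · rw [_root_.mul_inv_rev, mx_mul, Matrix.mul_apply]
      exact sum_mem fun k _ => mul_mem (h4 _ _) (h2 _ _)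
  one_mem' := by
    have h : ∀ i j, mx (1 : G8 K) i j ∈ E := fun i j => by
      rw [mx_one, Matrix.one_apply]
      split_ifs
      · exact one_mem _
      · exact zero_mem _
    exact ⟨h, by rw [inv_one]; exact h⟩
  inv_mem' := by
    rintro a ⟨h1, h2⟩
    exact ⟨h2, by rw [inv_inv]; exact h1⟩

theorem finite_ent {K : Type u} [Field K] (E : Subfield K) [Finite E] : Finite (ent E) :=
  Finite.of_injective (fun g i j => (⟨mx g.1 i j, g.2.1 i j⟩ : E)) fun _ _ h =>
    Subtype.ext (mx_injective (Matrix.ext fun i j => congrArg Subtype.val (congrFun (congrFun h i) j)))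

variable [Finite F]

theorem sg_ent {E : Subfield (Kb F)} {g : G8 (Kb F)} (hg : g ∈ ent E) : sg g ∈ ent E := by
  have h : ∀ x : G8 (Kb F), (∀ i j, mx x i j ∈ E) → ∀ i j, mx (sg x) i j ∈ E := fun x hx i j => by
    show fq F (mx x i j) ∈ E
    rw [fq_apply]
    exact pow_mem (hx i j) _
  exact ⟨h g hg.1, by rw [← map_inv]; exact h _ hg.2⟩

theorem exists_ent (c : G8 (Kb F)) : ∃ E : Subfield (Kb F), Finite E ∧ c ∈ ent E := by
  let S : Set (Kb F) := Set.range (fun t : chevE8.Idx × chevE8.Idx => mx c t.1 t.2) ∪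
    Set.range (fun t : chevE8.Idx × chevE8.Idx => mx c⁻¹ t.1 t.2)
  have : Finite S := ((Set.finite_range _).union (Set.finite_range _)).to_subtype
  have : FiniteDimensional F (IntermediateField.adjoin F S) :=
    IntermediateField.finiteDimensional_adjoin fun x _ => Algebra.IsIntegral.isIntegral x
  have h1 : Finite (IntermediateField.adjoin F S) := Module.finite_of_finite F
  exact ⟨(IntermediateField.adjoin F S).toSubfield, h1,
    fun i j => IntermediateField.subset_adjoin F S (Or.inl ⟨(i, j), rfl⟩),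
    fun i j => IntermediateField.subset_adjoin F S (Or.inr ⟨(i, j), rfl⟩)⟩

/-- homomorphisms which are conjugate over the closure are conjugate over the field, if the centralizer is trivial -/
theorem exists_rat {A G Y : Type*} [Group A] [Group G] [Group Y] {e : G →* Y} {σ : Y →* Y} (he : Function.Injective e)
    (hσ : ∀ x, σ (e x) = e x) (hfix : ∀ y, σ y = y → ∃ x, e x = y)
    (hfin : ∀ c : Y, ∃ T : Subgroup Y, Finite T ∧ c ∈ T ∧ ∀ t ∈ T, σ t ∈ T)
    {φ ρ : A →* G} (hC : ∀ x : G, (∀ a, x * φ a = φ a * x) → x = 1)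
    {g : Y} (hg : ∀ a, g * e (φ a) = e (ρ a) * g) : ∃ y : G, ∀ a, y * ρ a = φ a * y := by
  have hg' : ∀ a, σ g * e (φ a) = e (ρ a) * σ g := fun a => by
    have h := congrArg σ (hg a)
    rwa [map_mul, map_mul, hσ, hσ] at h
  obtain ⟨T, hT, hc, hTs⟩ := hfin ((σ g)⁻¹ * g)
  let S : Subgroup Y := T ⊓ Subgroup.centralizer (Set.range fun a => e (φ a))
  have : Finite S := Finite.of_injective _ (Subgroup.inclusion_injective (inf_le_left : S ≤ T))
  have hS : ∀ x, x ∈ S ↔ x ∈ T ∧ ∀ a, e (φ a) * x = x * e (φ a) := fun x => by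
    rw [Subgroup.mem_inf, Subgroup.mem_centralizer_iff]
    exact and_congr_right fun _ => Set.forall_mem_range
  have hsg : ∀ x ∈ S, σ x ∈ S := fun x hx => (hS _).2 ⟨hTs _ ((hS _).1 hx).1, fun a => by
    have h := congrArg σ (((hS _).1 hx).2 a)
    rwa [map_mul, map_mul, hσ] at h⟩
  let L : S → S := fun x => ⟨(σ x.1)⁻¹ * x.1, mul_mem (inv_mem (hsg _ x.2)) x.2⟩
  have key : ∀ x y : Y, (σ x)⁻¹ * x = (σ y)⁻¹ * y → ∃ w : G, e w = x * y⁻¹ := fun x y h => by
    apply hfix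
    rw [map_mul, map_inv]
    calc σ x * (σ y)⁻¹ = σ x * ((σ y)⁻¹ * y) * y⁻¹ := by group
      _ = x * y⁻¹ := by rw [← h]; group
  have hL : Function.Injective L := by
    intro x y h
    obtain ⟨w, hw⟩ := key x y (congrArg Subtype.val h)
    have h1 : w = 1 := hC w fun a => he (by
      rw [map_mul, map_mul, hw]
      exact (((hS _).1 (mul_mem x.2 (inv_mem y.2))).2 a).symm)
    rw [h1, map_one, eq_comm, mul_inv_eq_one] at hw
    exact Subtype.ext hw
  have hcS : (σ g)⁻¹ * g ∈ S := (hS _).2 ⟨hc, fun a => by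
    rw [mul_assoc, hg, ← mul_assoc, ← mul_assoc]
    congr 1
    rw [eq_inv_mul_iff_mul_eq, ← mul_assoc, hg', mul_inv_cancel_right]⟩
  obtain ⟨x, hx⟩ := Finite.surjective_of_injective hL ⟨_, hcS⟩
  obtain ⟨y, hy⟩ := key x g (congrArg Subtype.val hx)
  refine ⟨y, fun a => he ?_⟩
  rw [map_mul, map_mul, hy, ← mul_assoc, ((hS _).1 x.2).2, mul_assoc, mul_assoc]
  congr 1
  rw [inv_mul_eq_iff_eq_mul, ← mul_assoc, hg, mul_inv_cancel_right]

theorem exists_fin (c : G8 (Kb F)) : ∃ T : Subgroup (G8 (Kb F)), Finite T ∧ c ∈ T ∧ ∀ t ∈ T, sg t ∈ T := by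
  obtain ⟨E, hE, hc⟩ := exists_ent c
  exact ⟨ent E, finite_ent E, hc, fun _ => sg_ent⟩

theorem cen_eq {G : Type*} [Group G] [IsSimpleGroup G] {H : Subgroup G} {φ : A5 →* G} (h : MaxAlt H 5 φ) (x : G)
    (hx : ∀ a, x * φ a = φ a * x) : x = 1 := by
  let C : Subgroup G := Subgroup.centralizer (φ.range : Set G)
  have hna : ¬ φ.range ≤ C := fun h1 => by
    have h2 : φ a5 * φ b5 = φ b5 * φ a5 := h1 ⟨b5, rfl⟩ _ ⟨a5, rfl⟩
    rw [← map_mul, ← map_mul] at h2
    have h3 := h.inj h2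
    revert h3
    decide
  have hn : ∀ y ∈ H, ∀ c ∈ C, y * c * y⁻¹ ∈ C := fun y hy c hc a ha => by
    have h1 := hc _ (h.norm _ (inv_mem hy) a ha)
    calc a * (y * c * y⁻¹) = y * (y⁻¹ * a * y⁻¹⁻¹ * c) * y⁻¹ := by group
      _ = y * c * y⁻¹ * a := by rw [h1]; group
  have h1 : C ⊓ H = ⊥ := by
    by_contra h1
    exact hna ((h.min _ inf_le_right (fun y hy b hb => ⟨hn y hy b hb.1, H.mul_mem (H.mul_mem hy hb.2) (H.inv_mem hy)⟩)
      h1).trans inf_le_left)
  have hxC : x ∈ C := by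
    rintro _ ⟨a, rfl⟩
    exact (hx a).symm
  by_contra hx1
  have h2 : H < Subgroup.normalizer (C : Set G) := by
    refine lt_of_le_of_ne (fun y hy => Subgroup.mem_normalizer_iff.2 fun c => ⟨hn y hy c, fun hc => ?_⟩) fun e => ?_
    · have h3 := hn _ (inv_mem hy) _ hc
      simpa [mul_assoc] using h3
    · have h3 : x ∈ C ⊓ H := ⟨hxC, e ▸ Subgroup.le_normalizer hxC⟩
      rw [h1] at h3
      exact hx1 h3
  have h3 : C.Normal := Subgroup.normalizer_eq_top_iff.1 (h.coatom.2 _ h2)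
  rcases h3.eq_bot_or_eq_top with e | e
  · rw [e] at hxC
    exact hx1 hxC
  · exact hna (e ▸ le_top)

/-- **END5** -/
theorem end5 : END5.{u} := by
  intro hU hR F _ _ p _ hp H φ hM hφ
  have : IsSimpleGroup (G8 F) := (Cfsg.Agent.S1054.result (F := F) chevE8 (by simp)).1
  obtain ⟨ρ, hρ, z, hz1, hz⟩ := hR F p hp
  obtain ⟨g, hg⟩ := hU F p hp _ _ (noFix_emb0 hφ) (noFix_emb0 hρ)
  obtain ⟨y, hy⟩ := exists_rat emb0_injective sg_emb0 (fun _ => fix_G) exists_fin (cen_eq hM) hg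
  have h1 : y * z * y⁻¹ = 1 := cen_eq hM _ fun a => by
    have h2 : φ a = y * ρ a * y⁻¹ := by rw [hy, mul_inv_cancel_right]
    rw [h2]
    calc y * z * y⁻¹ * (y * ρ a * y⁻¹) = y * (z * ρ a) * y⁻¹ := by group
      _ = y * ρ a * y⁻¹ * (y * z * y⁻¹) := by rw [hz]; group
  exact hz1 (by simpa using h1)

end Cfsg.Agent.E8A.Reg5.End
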