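import Cfsg.Agent.E8A.Reg5.Aut
import Cfsg.Agent.H405.UE.NegSymm

/-!
# The Chevalley involution of `E₈(K)` is inner (helper8)
-/

set_option autoImplicit false
set_option maxRecDepth 100000

namespace Cfsg.Agent.E8A.Reg5.Rho

open Cfsg Cfsg.Lie Matrix
open Cfsg.Agent.ChevalleyStructure Cfsg.Agent.ChevalleyStructure.JacMain Cfsg.Agent.ChevalleyStructure.Ring
open Cfsg.Agent.ChevalleyStructure.LieAut Cfsg.Agent.ChevalleyStructure.LieAbs Cfsg.Agent.ChevalleyStructure.SignedSymm
open Cfsg.Agent.ChevalleyStructure.Elts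
open Cfsg.Agent.H942.E8Tab (e8T)
open Cfsg.Agent.H405.UE (negSymm negAut_xG)
open Cfsg.Agent.E8A.Reg5.Aut (IsAut exists_fix exists_tor isAut_mx)

universe u

variable {K : Type u} [Field K]

/-- the Chevalley involution -/
def S8 : Symm chevE8 := negSymm e8T.inList

theorem S8_sgn (a : chevE8.Idx) : S8.sgn a = -1 := by cases a <;> rfl

theorem S8_ε (r : Fin chevE8.nroots) : S8.ε r = -1 := rfl

theorem S8_inl (i : Fin chevE8.rank) : S8.perm (Sum.inl i) = Sum.inl i := rfl

theorem S8_inr (r : Fin chevE8.nroots) : S8.perm (Sum.inr r) = Sum.inr (S8.σ r) := rfl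

open Polynomial in
theorem adA_perm (k a b : chevE8.Idx) : adA chevE8 (S8.perm k) (S8.perm a) (S8.perm b) = -adA chevE8 k a b := by
  rcases k with i | r
  · rw [S8_inl, adA_inl]
    unfold adH
    by_cases h : a = b
    · subst h
      rw [Matrix.diagonal_apply_eq, Matrix.diagonal_apply_eq]
      rcases a with j | s
      · rfl
      · have h1 := S8.cartan_eq i s
        exact h1.trans (neg_one_mul _)
    · rw [Matrix.diagonal_apply_ne _ h, Matrix.diagonal_apply_ne _ (S8.perm.injective.ne h), neg_zero]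
  · obtain ⟨c, m, -, -, -, h⟩ := xr_entry.{0} r a b
    obtain ⟨c', m', -, -, -, h'⟩ := xr_entry.{0} (S8.σ r) (S8.perm a) (S8.perm b)
    have key : ∀ t : ℚ, (c' : ℚ) * (-t) ^ m' = c * t ^ m := fun t => by
      have h1 := S8.xMat_perm ℚ r t a b
      have e : ∀ (r : Fin chevE8.nroots) (t : ℚ), chevE8.xMat ℚ r t = xR chevE8 ℚ r t := fun r t => by
        unfold xR
        rw [dif_pos r.2]
        rfl
      rw [e, e, h, h', S8_sgn, S8_sgn, S8_ε] at h1
      push_cast at h1
      rw [neg_one_mul] at h1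
      linear_combination h1
    rw [S8_inr, adA_inr, adA_inr, coefE_apply, coefE_apply, h, h', ← C_eq_intCast, ← C_eq_intCast, coeff_C_mul_X_pow,
      coeff_C_mul_X_pow]
    have k1 := key 1
    have k2 := key 2
    rw [one_pow, mul_one] at k1
    rw [neg_pow, ← mul_assoc, k1] at k2
    by_cases hc : (c : ℚ) = 0
    · have hc' : (c' : ℚ) = 0 := by
        rw [hc] at k1
        exact (mul_eq_zero.1 k1).resolve_right (pow_ne_zero _ (by norm_num))
      rw [Int.cast_eq_zero] at hc hc'
      simp [hc, hc']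
    · have h2 : m' = m := pow_right_injective₀ (by norm_num : (0 : ℚ) < 2) (by norm_num) (mul_left_cancel₀ hc k2)
      subst h2
      split_ifs with h3
      · subst h3
        have h4 : (c' : ℚ) = ((-c : ℤ) : ℚ) := by push_cast; linear_combination -k1
        exact_mod_cast h4
      · rfl

theorem mat_ee (j : chevE8.Idx) : S8.mat K *ᵥ ee K j = -ee K (S8.perm j) := by
  funext i
  rw [mulVec_ee, Symm.mat_apply, Pi.neg_apply, ee_apply, S8_sgn]
  split_ifs <;> simp

theorem isAut_S8 : IsAut (S8.mat K) (S8.matInv K) := by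
  refine ⟨S8.mat_mul_matInv K, mul_adv_of_basis chevE8 _ fun j => ?_⟩
  have h1 : adv (adR chevE8 K) (S8.mat K *ᵥ Pi.single j 1) = -adR chevE8 K (S8.perm j) := by
    have h2 := mat_ee (K := K) j
    unfold ee at h2
    rw [h2, adv_neg, adv_single_one]
  rw [h1]
  ext a b
  obtain ⟨a, rfl⟩ := S8.perm.surjective a
  rw [Symm.mat_mul, Symm.mul_mat, S8_sgn, S8_sgn, Matrix.neg_apply, adR_def, adR_def, Matrix.map_apply, Matrix.map_apply,
    adA_perm, map_neg]
  push_cast
  ring

theorem mat_T {x : L8 K} (hx : InT x) : S8.mat K *ᵥ x = -x := by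
  funext a
  obtain ⟨a, rfl⟩ := S8.perm.surjective a
  have h1 : (S8.mat K *ᵥ x) (S8.perm a) = -x a := by
    rw [Matrix.mulVec, dotProduct, Finset.sum_eq_single a]
    · rw [Symm.mat_apply, if_pos rfl, S8_sgn]; simp
    · intro c _ hc
      rw [Symm.mat_apply, if_neg (fun h => hc (S8.perm.injective h).symm), zero_mul]
    · intro h; exact absurd (Finset.mem_univ a) h
  rw [h1]
  rcases a with i | r
  · rfl
  · rw [S8_inr, Pi.neg_apply, hx, hx]

theorem inT_neg {x : L8 K} (hx : InT x) : InT (-x) := fun r => by rw [Pi.neg_apply, hx, neg_zero]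

/-- the Chevalley involution is inner -/
theorem exists_inv (p : ℕ) [CharP K p] (hp : 7 ≤ p) : ∃ n : G8 K, ∀ r, r < chevE8.nroots → ∀ t : K,
    (n : GL chevE8.Idx K) * xG e8T.inList r t * (n : GL chevE8.Idx K)⁻¹ = xG e8T.inList (chevE8.neg r) (-t) := by
  have h := isAut_S8 (K := K)
  obtain ⟨n, hn⟩ := exists_fix p hp h (fun x hx => by rw [mat_T hx]; exact inT_neg hx) fun x hx => by
    have h1 := h.cancel' (-x)
    rw [mat_T (inT_neg hx), neg_neg] at h1
    rw [h1]
    exact inT_neg hx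
  obtain ⟨t, ht⟩ := exists_tor p hp (h.trans (isAut_mx n)) hn
  have h1 : ((t * n⁻¹ : G8 K) : GL chevE8.Idx K) = S8.P K := by
    apply Units.ext
    show mx (t * n⁻¹) = S8.mat K
    rw [mx_mul, ht, Matrix.mul_assoc, mx_mul_inv, Matrix.mul_one]
  refine ⟨t * n⁻¹, fun r hr s => ?_⟩
  rw [h1]
  exact negAut_xG e8T.inList r s hr

end Cfsg.Agent.E8A.Reg5.Rho
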