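import Cfsg.Agent.E8A.Reg5.RhoCoh
import Cfsg.Agent.E8A.Reg5.RhoInv
import Cfsg.Agent.E8A.Reg5.End
import Cfsg.Agent.E8A.Reg5.ClsKac
import Cfsg.Agent.H788.E83.Inj

/-!
# The box RHO (helper8)

`A₅ → SL₅(ℤ)` (the deleted permutation module of degree 6), diagonally embedded in `A₄ A₄`.
-/

set_option autoImplicit false
set_option maxRecDepth 100000

namespace Cfsg.Agent.E8A.Reg5.Rho

open Cfsg Cfsg.Lie Matrix
open Cfsg.Agent.ChevalleyStructure Cfsg.Agent.ChevalleyStructure.Elts Cfsg.Agent.ChevalleyStructure.RootVec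
open Cfsg.Agent.Tits.Roots Cfsg.Agent.Nodes.RGDChev Cfsg.Agent.KFacts.RgdChevCoord Cfsg.Agent.H129.TorusChar
open Cfsg.Agent.H942.E8Tab (e8T)
open Cfsg.Agent.H288.E8L (Q8 wt)
open Cfsg.Agent.H934.E83 (p1 p2 r1 r2 s1 hp8 p1_tv p2_tv coe_p1_tv coe_p2_tv hom_ext comm emb_p1 emb_p2 tab1 tab2)
open Cfsg.Agent.H788.E83 (phi_hab1 p1_injective)
open Cfsg.Agent.H482.Ore.Fix (hab')
open Cfsg.Agent.E8A.Reg5.Cls (Cj dz ex mv dfx_of_cj zpow_sum' exists_prim)
open Cfsg.Agent.FP3 (dfx)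
open Cfsg.Agent.Lib.VonDyck

universe u

variable {K : Type u} [Field K]

/-- `SL₅` -/
abbrev SL5 (R : Type*) [CommRing R] := SpecialLinearGroup (Fin 5) R

theorem val_mul {R : Type*} [CommRing R] (A B : SL5 R) : (A * B).1 = A.1 * B.1 := rfl

variable (K) in
/-- the diagonal embedding -/
noncomputable def ps : SL5 K →* G8 K where
  toFun A := p1 K A * p2 K A
  map_one' := by rw [map_one, map_one, mul_one]
  map_mul' A B := by rw [map_mul, map_mul]; exact (comm B A).symm.mul_mul_mul_comm _ _ |>.symm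

theorem ps_apply (A : SL5 K) : ps K A = p1 K A * p2 K A := rfl

theorem emb0_ps (A : SL5 K) : emb0 (ps K A) = ps (Kb K) (SpecialLinearGroup.map (algebraMap K (Kb K)) A) := by
  rw [ps_apply, ps_apply, map_mul, ← emb_p1, ← emb_p2]
  rfl

/-! ### torus elements -/

theorem p1_hab {a b : Fin 5} (hab : a ≠ b) (j : Fin 8) (h1 : chevE8.simple j = r1 a b)
    (h2 : chevE8.neg (chevE8.simple j) = r1 b a) (h3 : s1 a b = 1) (h4 : s1 b a = 1) (u : Kˣ) :
    p1 K (hab' a b hab u) = hc hp8 j (u : K) :=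
  phi_hab1 hp8 (s1 := (1 : K)) (s2 := (1 : K)) hab (mul_one 1) (fun c => by rw [p1_tv, h1, h3, Int.cast_one])
    (fun c => by rw [p1_tv, h2, h4, Int.cast_one]) u

theorem p2_hab {a b : Fin 5} (hab : a ≠ b) (j : Fin 8) (h1 : chevE8.simple j = r2 a b)
    (h2 : chevE8.neg (chevE8.simple j) = r2 b a) (u : Kˣ) : p2 K (hab' a b hab u) = hc hp8 j (u : K) :=
  phi_hab1 hp8 (s1 := (1 : K)) (s2 := (1 : K)) hab (mul_one 1) (fun c => by rw [p2_tv, h1, one_mul])
    (fun c => by rw [p2_tv, h2, one_mul]) u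

/-- `diag(1, ζ^a, ζ^(b-a), ζ^(c-b), ζ^(-c))` -/
def dg (ζ : Kˣ) (a b c : ℕ) : SL5 K :=
  hab' 1 2 (by decide) (ζ ^ a) * (hab' 2 3 (by decide) (ζ ^ b) * hab' 3 4 (by decide) (ζ ^ c))

theorem coe_dg (ζ : Kˣ) (a b c : ℕ) : (dg ζ a b c).1 =
    diagonal ![1, (ζ : K) ^ a, ((ζ : K) ^ a)⁻¹ * ζ ^ b, ((ζ : K) ^ b)⁻¹ * ζ ^ c, ((ζ : K) ^ c)⁻¹] := by
  show Matrix.diagonal _ * (Matrix.diagonal _ * Matrix.diagonal _) = _
  rw [Matrix.diagonal_mul_diagonal, Matrix.diagonal_mul_diagonal]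
  congr 1
  funext k
  fin_cases k <;> simp

/-- the coordinates of the image -/
def yy (a b c : ℕ) : Q8 := fun i =>
  a * (chevE8.cartan 2 (chevE8.simple i) + chevE8.cartan 7 (chevE8.simple i)) +
    (b * (chevE8.cartan 3 (chevE8.simple i) + chevE8.cartan 6 (chevE8.simple i)) +
    c * (chevE8.cartan 1 (chevE8.simple i) + chevE8.cartan 5 (chevE8.simple i)))

/-- torus elements with given values on the fundamental roots -/
def IsT (ζ : K) (t : G8 K) (y : Q8) : Prop := t ∈ TT chevE8 K ∧ ∀ i, cX e8T t (sr i) = ζ ^ y i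

theorem IsT.mul {ζ : K} (h0 : ζ ≠ 0) {s t : G8 K} {x y : Q8} (hs : IsT ζ s x) (ht : IsT ζ t y) : IsT ζ (s * t) (x + y) :=
  ⟨mul_mem hs.1 ht.1, fun i => by rw [cX_mul e8T hs.1 ht.1, hs.2, ht.2, Pi.add_apply, zpow_add₀ h0]⟩

theorem isT_hc (ζ : Kˣ) (a : ℕ) (j : Fin 8) :
    IsT (ζ : K) (hc hp8 j ((ζ ^ a : Kˣ) : K)) fun i => a * chevE8.cartan j (chevE8.simple i) := by
  refine ⟨hc_mem hp8 j (Units.ne_zero _), fun i => ?_⟩
  rw [cX_sr, ← vec_simple e8T i, ch_hc e8T j (Units.ne_zero _) (NPerm.simple_lt e8T.inList (lt_rank e8T i)),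
    Units.val_pow_eq_pow_val, _root_.zpow_mul, _root_.zpow_natCast]

theorem IsT.mx_eq {ζ : K} (h0 : ζ ≠ 0) {t : G8 K} {y : Q8} (h : IsT ζ t y) : mx t = dz ζ y := by
  rw [mx_TT h.1, dz]
  congr 1
  funext j
  rw [(isMC_cX e8T h.1).eq_prod, ex, zpow_sum' h0]
  refine Finset.prod_congr rfl fun i _ => ?_
  rw [h.2, ← _root_.zpow_mul, mul_comm]

theorem mx_dg (ζ : Kˣ) (a b c : ℕ) : mx (ps K (dg ζ a b c)) = dz (ζ : K) (yy a b c) := by
  have h0 := ζ.ne_zero
  rw [dg, map_mul, map_mul, ps_apply, ps_apply, ps_apply,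
    p1_hab _ 2 (by decide +kernel) (by decide +kernel) (by decide) (by decide),
    p1_hab _ 3 (by decide +kernel) (by decide +kernel) (by decide) (by decide),
    p1_hab _ 1 (by decide +kernel) (by decide +kernel) (by decide) (by decide),
    p2_hab _ 7 (by decide +kernel) (by decide +kernel), p2_hab _ 6 (by decide +kernel) (by decide +kernel),
    p2_hab _ 5 (by decide +kernel) (by decide +kernel)]
  rw [(((isT_hc ζ a 2).mul h0 (isT_hc ζ a 7)).mul h0 (((isT_hc ζ b 3).mul h0 (isT_hc ζ b 6)).mul h0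
    ((isT_hc ζ c 1).mul h0 (isT_hc ζ c 5)))).mx_eq h0]
  congr 1
  funext i
  simp only [yy, Pi.add_apply, mul_add]
  rfl

theorem cj_of [IsAlgClosed K] {A : SL5 K} {ζ : Kˣ} {a b c : ℕ} {B B' : Matrix (Fin 5) (Fin 5) K} {s : K} (hs : s ≠ 0)
    (h1 : B' * B = s • (1 : Matrix (Fin 5) (Fin 5) K)) (h2 : A.1 * B = B * (dg ζ a b c).1) :
    Cj (ps K A) (ζ : K) (yy a b c) := by
  have h3 : B.det ≠ 0 := by
    have h4 := congrArg det h1
    rw [det_mul, det_smul, det_one, mul_one] at h4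
    exact right_ne_zero_of_mul (h4 ▸ pow_ne_zero _ hs)
  obtain ⟨l, hl⟩ := IsAlgClosed.exists_pow_nat_eq (B.det)⁻¹ (by norm_num : 0 < 5)
  let C : SL5 K := ⟨l • B, by rw [det_smul, Fintype.card_fin, hl, inv_mul_cancel₀ h3]⟩
  have h4 : A * C = C * dg ζ a b c := Subtype.ext (by
    show A.1 * (l • B) = (l • B) * _
    rw [Matrix.mul_smul, Matrix.smul_mul, h2])
  exact ⟨ps K C, by rw [← mx_dg, ← mx_mul, ← mx_mul, ← map_mul, ← map_mul, h4]⟩

/-! ### the representation of degree five -/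

/-- the image of the involution -/
def X0 : SL5 ℤ := ⟨!![-1, 0, 0, 0, 0; -1, 0, 0, 0, 1; -1, 0, 1, 0, 0; -1, 0, 0, 1, 0; -1, 1, 0, 0, 0], by decide +kernel⟩

/-- the image of the element of order three -/
def Y0 : SL5 ℤ := ⟨!![0, 0, 0, 0, -1; 0, 0, 0, 1, -1; 0, 1, 0, 0, -1; 0, 0, 1, 0, -1; 1, 0, 0, 0, -1], by decide +kernel⟩

/-- the image of the element of order five -/
def C0 : SL5 ℤ := ⟨!![0, 0, 0, 0, 1; 1, 0, 0, 0, 0; 0, 1, 0, 0, 0; 0, 0, 1, 0, 0; 0, 0, 0, 1, 0], by decide +kernel⟩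

/-- the invariant form -/
def J0 : Matrix (Fin 5) (Fin 5) ℤ :=
  !![5, -1, -1, -1, -1; -1, 5, -1, -1, -1; -1, -1, 5, -1, -1; -1, -1, -1, 5, -1; -1, -1, -1, -1, 5]

theorem X0_mul : X0 * Y0 = C0 := Subtype.ext (by rw [val_mul]; decide +kernel)

theorem exists_rho0 : ∃ φ : A5 →* SL5 ℤ, φ a5 = X0 ∧ φ b5 = Y0 := by
  refine exists_hom_alternatingFive ?_ ?_ ?_
  · exact Subtype.ext (by rw [pow_two, val_mul]; decide +kernel)
  · exact Subtype.ext (by rw [pow_three, val_mul, val_mul]; decide +kernel)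
  · rw [X0_mul]
    exact Subtype.ext (by rw [pow_succ, pow_succ, pow_three, val_mul, val_mul, val_mul, val_mul]; decide +kernel)

theorem J0_det : J0.det = 1296 := by decide +kernel

theorem J0_X : X0.1ᵀ * (J0 * X0.1) = J0 := by decide +kernel

theorem J0_Y : Y0.1ᵀ * (J0 * Y0.1) = J0 := by decide +kernel

variable (K) in
/-- reduction -/
abbrev rd : SL5 ℤ →* SL5 K := SpecialLinearGroup.map (Int.castRingHom K)

theorem rd_val (A : SL5 ℤ) : (rd K A).1 = A.1.map (Int.castRingHom K) := rfl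

theorem rd_apply (A : SL5 ℤ) (i j : Fin 5) : (rd K A).1 i j = (A.1 i j : K) := rfl

theorem cj_X [IsAlgClosed K] (h2 : (2 : K) ≠ 0) : Cj (ps K (rd K X0)) ((-1 : Kˣ) : K) (yy 0 0 1) := by
  refine cj_of (B := !![0, 0, 0, 0, 2; 0, 0, 1, 1, 1; 1, 0, 0, 0, 1; 0, 1, 0, 0, 1; 0, 0, 1, -1, 1])
    (B' := !![-1, 0, 2, 0, 0; -1, 0, 0, 2, 0; -1, 1, 0, 0, 1; 0, 1, 0, 0, -1; 1, 0, 0, 0, 0]) h2 ?_ ?_
  · ext i j
    fin_cases i <;> fin_cases j <;> simp [Matrix.mul_apply, Fin.sum_univ_five] <;> norm_num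
  · rw [coe_dg]
    ext i j
    rw [Matrix.mul_diagonal, Matrix.mul_apply, Fin.sum_univ_five]
    simp only [rd_apply]
    fin_cases i <;> fin_cases j <;> simp [X0] <;> norm_num

theorem cj_Y [IsAlgClosed K] (h3 : (3 : K) ≠ 0) {w : Kˣ} (h : (w : K) ^ 2 + w + 1 = 0) :
    Cj (ps K (rd K Y0)) (w : K) (yy 1 2 1) := by
  refine cj_of (B := !![0, 1 - w, 0, 2 + w, 0; 1, -w, 1, 1 + w, 1; 1, -w, -1 - w, 1 + w, w; 1, -w, w, 1 + w, -1 - w;
      0, -1 - 2 * w, 0, 1 + 2 * w, 0])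
    (B' := !![-1, 1, 1, 1, -1; 1, 0, 0, 0, w; 0, 1, w, -1 - w, 0; 1, 0, 0, 0, -1 - w; 0, 1, -1 - w, w, 0]) h3 ?_ ?_
  · ext i j
    fin_cases i <;> fin_cases j <;> simp [Matrix.mul_apply, Fin.sum_univ_five] <;> grind
  · have e1 : ((w : K) ^ 1)⁻¹ = -1 - w := inv_eq_of_mul_eq_one_right (by grind)
    have e2 : ((w : K) ^ 2)⁻¹ = w := inv_eq_of_mul_eq_one_right (by grind)
    rw [coe_dg, e1, e2]
    ext i j
    rw [Matrix.mul_diagonal, Matrix.mul_apply, Fin.sum_univ_five]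
    simp only [rd_apply]
    fin_cases i <;> fin_cases j <;> simp [Y0] <;> grind

theorem cj_C [IsAlgClosed K] (h5 : (5 : K) ≠ 0) {w : Kˣ} (h : (w : K) ^ 4 + w ^ 3 + w ^ 2 + w + 1 = 0) :
    Cj (ps K (rd K C0)) (w : K) (yy 1 3 1) := by
  refine cj_of (B := !![1, 1, 1, 1, 1; 1, w ^ 4, w ^ 3, w ^ 2, w; 1, w ^ 3, w, w ^ 4, w ^ 2; 1, w ^ 2, w ^ 4, w, w ^ 3;
      1, w, w ^ 2, w ^ 3, w ^ 4])
    (B' := !![1, 1, 1, 1, 1; 1, w, w ^ 2, w ^ 3, w ^ 4; 1, w ^ 2, w ^ 4, w, w ^ 3; 1, w ^ 3, w, w ^ 4, w ^ 2;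
      1, w ^ 4, w ^ 3, w ^ 2, w]) h5 ?_ ?_
  · ext i j
    fin_cases i <;> fin_cases j <;> simp [Matrix.mul_apply, Fin.sum_univ_five] <;> grind
  · have e1 : ((w : K) ^ 1)⁻¹ = w ^ 4 := inv_eq_of_mul_eq_one_right (by grind)
    have e2 : ((w : K) ^ 3)⁻¹ = w ^ 2 := inv_eq_of_mul_eq_one_right (by grind)
    rw [coe_dg, e1, e2]
    ext i j
    rw [Matrix.mul_diagonal, Matrix.mul_apply, Fin.sum_univ_five]
    simp only [rd_apply]
    fin_cases i <;> fin_cases j <;> simp [C0] <;> grind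

theorem mv_tab : mv 2 (yy 0 0 1) = 128 ∧ mv 3 (yy 1 2 1) = 168 ∧ mv 5 (yy 1 3 1) = 200 := by decide +kernel

theorem cast_ne (p : ℕ) [CharP K p] (hp : 7 ≤ p) {n : ℕ} (hn : n ∣ 6480) : (n : K) ≠ 0 := by
  have hp' : p.Prime := (CharP.char_is_prime_or_zero K p).resolve_right (by omega)
  intro e
  have h1 : p ∣ 2 ^ 4 * 3 ^ 4 * 5 := ((CharP.cast_eq_zero_iff K p n).1 e).trans hn
  rcases (hp'.dvd_mul).1 h1 with h1 | h1
  · rcases (hp'.dvd_mul).1 h1 with h1 | h1 <;> have := Nat.le_of_dvd (by norm_num) (hp'.dvd_of_dvd_pow h1) <;> omega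
  · have := Nat.le_of_dvd (by norm_num) h1
    omega

theorem noFix_bar {F : Type u} [Field F] (p : ℕ) [CharP F p] (hp : 7 ≤ p) {φ : A5 →* SL5 ℤ} (h1 : φ a5 = X0)
    (h2 : φ b5 = Y0) : NoFix (((ps (Kb F)).comp (rd (Kb F))).comp φ) := by
  have hp' : p.Prime := (CharP.char_is_prime_or_zero F p).resolve_right (by omega)
  have := Fact.mk hp'
  have hK : CharP (Kb F) p := charP_of_injective_algebraMap (algebraMap F (Kb F)).injective p
  have hcop : ∀ m : ℕ, 0 < m → m < 7 → m.Coprime p := fun m h0 h7 =>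
    (hp'.coprime_iff_not_dvd.2 (Nat.not_dvd_of_pos_of_lt h0 (by omega))).symm
  obtain ⟨w3, hw3⟩ := exists_prim (F := F) p (hcop 3 (by norm_num) (by norm_num))
  obtain ⟨w5, hw5⟩ := exists_prim (F := F) p (hcop 5 (by norm_num) (by norm_num))
  have hw2 : IsPrimitiveRoot ((-1 : (Kb F)ˣ) : Kb F) 2 := by
    rw [Units.val_neg, Units.val_one]
    exact IsPrimitiveRoot.neg_one p (by omega)
  have e3 := hw3.geom_sum_eq_zero (by norm_num)
  have e5 := hw5.geom_sum_eq_zero (by norm_num)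
  simp only [Finset.sum_range_succ, Finset.sum_range_zero] at e3 e5
  have d2 := dfx_of_cj hw2 (cj_X (by simpa using cast_ne (K := Kb F) p hp (n := 2) (by norm_num)))
  have d3 := dfx_of_cj (ζ := ((Units.mk0 w3 (hw3.ne_zero (by norm_num)) : (Kb F)ˣ) : Kb F)) hw3
    (cj_Y (by simpa using cast_ne (K := Kb F) p hp (n := 3) (by norm_num)) (by
      rw [Units.val_mk0]; linear_combination e3))
  have d5 := dfx_of_cj (ζ := ((Units.mk0 w5 (hw5.ne_zero (by norm_num)) : (Kb F)ˣ) : Kb F)) hw5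
    (cj_C (by simpa using cast_ne (K := Kb F) p hp (n := 5) (by norm_num)) (by
      rw [Units.val_mk0]; linear_combination e5))
  rw [mv_tab.1, ← h1] at d2
  rw [mv_tab.2.1, ← h2] at d3
  rw [mv_tab.2.2, ← X0_mul, ← h1, ← h2, ← map_mul] at d5
  have h4 : Module.finrank (Kb F) (L8 (Kb F)) = 248 := by
    rw [Module.finrank_fintype_fun_eq_card, Fintype.card_sum, Fintype.card_fin, Fintype.card_fin]
    rfl
  intro v hv
  refine eq_zero_of_dfx ((LK (Kb F)).comp (((ps (Kb F)).comp (rd (Kb F))).comp φ))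
    (cast_ne (K := Kb F) p hp (by norm_num)) ?_ (hv a5) (hv b5)
  simp only [MonoidHom.comp_apply]
  omega

/-! ### the centralizer -/

variable (K) in
/-- the inverse transpose -/
def it : SL5 K →* SL5 K where
  toFun A := (A⁻¹).transpose
  map_one' := Subtype.ext (by rw [inv_one]; exact Matrix.transpose_one)
  map_mul' A B := Subtype.ext (by rw [_root_.mul_inv_rev]; exact Matrix.transpose_mul _ _)

theorem it_val (A : SL5 K) : (it K A).1 = (A⁻¹).1ᵀ := rfl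

theorem it_tv {a b : Fin 5} (hab : a ≠ b) (c : K) :
    it K (SpecialLinearGroup.transvection hab c) = SpecialLinearGroup.transvection hab.symm (-c) := by
  have h : (SpecialLinearGroup.transvection hab c)⁻¹ = SpecialLinearGroup.transvection hab (-c) := by
    apply inv_eq_of_mul_eq_one_right
    apply Subtype.ext
    show Matrix.transvection a b c * Matrix.transvection a b (-c) = 1
    rw [Matrix.transvection_mul_transvection_same _ _ hab, add_neg_cancel, Matrix.transvection_zero]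
  apply Subtype.ext
  rw [it_val, h]
  show (Matrix.transvection a b (-c))ᵀ = Matrix.transvection b a (-c)
  rw [Matrix.transvection, Matrix.transvection, transpose_add, transpose_one, transpose_single]

theorem exists_it (p : ℕ) [CharP K p] (hp : 7 ≤ p) : ∃ n : G8 K, (∀ A, n * p1 K A * n⁻¹ = p1 K (it K A)) ∧
    ∀ A, n * p2 K A * n⁻¹ = p2 K (it K A) := by
  obtain ⟨n, hn⟩ := exists_inv (K := K) p hp
  have h1 : (MulAut.conj n).toMonoidHom.comp (p1 K) = (p1 K).comp (it K) := hom_ext fun a b hab c => by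
    apply Subtype.ext
    show (n : GL chevE8.Idx K) * (p1 K _ : GL chevE8.Idx K) * (n : GL chevE8.Idx K)⁻¹ = (p1 K (it K _) : GL chevE8.Idx K)
    rw [it_tv, coe_p1_tv, coe_p1_tv, hn _ (tab1.1 a b hab), tab1.2.2.2.2.2 a b hab, tab1.2.2.2.2.1 a b, mul_neg]
  have h2 : (MulAut.conj n).toMonoidHom.comp (p2 K) = (p2 K).comp (it K) := hom_ext fun a b hab c => by
    apply Subtype.ext
    show (n : GL chevE8.Idx K) * (p2 K _ : GL chevE8.Idx K) * (n : GL chevE8.Idx K)⁻¹ = (p2 K (it K _) : GL chevE8.Idx K)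
    rw [it_tv, coe_p2_tv, coe_p2_tv, hn _ (tab2.1 a b hab), tab2.2.2.2.2.2 a b hab]
  exact ⟨n, DFunLike.congr_fun h1, DFunLike.congr_fun h2⟩

theorem it_mul {J : SL5 K} {l : K} (hJ : J.1 = l • J0.map (Int.castRingHom K)) {A : SL5 ℤ}
    (hA : A.1ᵀ * (J0 * A.1) = J0) : J * rd K A = it K (rd K A) * J := by
  have h1 : (it K (rd K A))⁻¹ = (rd K A).transpose := by
    rw [← map_inv]
    exact congrArg SpecialLinearGroup.transpose (inv_inv (rd K A))
  rw [← inv_mul_eq_iff_eq_mul, h1]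
  apply Subtype.ext
  show (A.1.map (Int.castRingHom K))ᵀ * (J.1 * A.1.map (Int.castRingHom K)) = J.1
  rw [hJ, Matrix.smul_mul, Matrix.mul_smul, ← Matrix.transpose_map, ← Matrix.map_mul, ← Matrix.map_mul, hA]

theorem exists_cen [Finite K] (p : ℕ) [CharP K p] (hp : 7 ≤ p) {φ : A5 →* SL5 ℤ} (h1 : φ a5 = X0) (h2 : φ b5 = Y0) :
    ∃ z : G8 K, z ≠ 1 ∧ ∀ a, z * ps K (rd K (φ a)) = ps K (rd K (φ a)) * z := by
  by_cases h : ∀ c : K, c ^ 5 = 1 → c = 1
  · have h3 : Function.Injective fun c : K => c ^ 5 := by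
      intro a b hab
      have hab' : a ^ 5 = b ^ 5 := hab
      by_cases hb : b = 0
      · rw [hb, zero_pow (by norm_num)] at hab'
        rw [hb, pow_eq_zero_iff (by norm_num) |>.1 hab']
      · exact (div_eq_one_iff_eq hb).1 (h _ (by rw [div_pow, hab', div_self (pow_ne_zero _ hb)]))
    have h4 : ((1296 : ℕ) : K) ≠ 0 := cast_ne p hp (by norm_num)
    obtain ⟨l, hl⟩ := Finite.surjective_of_injective h3 ((1296 : ℕ) : K)⁻¹
    have hl' : l ^ 5 = ((1296 : ℕ) : K)⁻¹ := hl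
    let J : SL5 K := ⟨l • J0.map (Int.castRingHom K), by
      rw [det_smul, Fintype.card_fin, hl', ← RingHom.mapMatrix_apply, ← RingHom.map_det, J0_det]
      simpa using inv_mul_cancel₀ h4⟩
    have h5 : ∀ a, J * rd K (φ a) = it K (rd K (φ a)) * J := by
      have e : (MulAut.conj J).toMonoidHom.comp ((rd K).comp φ) = (it K).comp ((rd K).comp φ) := by
        apply MonoidHom.eq_of_eqOn_dense closure_a5_b5
        rintro a (rfl | rfl)
        · show J * rd K (φ a5) * J⁻¹ = it K (rd K (φ a5))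
          rw [h1, it_mul rfl J0_X, mul_inv_cancel_right]
        · show J * rd K (φ b5) * J⁻¹ = it K (rd K (φ b5))
          rw [h2, it_mul rfl J0_Y, mul_inv_cancel_right]
      intro a
      exact mul_inv_eq_iff_eq_mul.1 (DFunLike.congr_fun e a)
    obtain ⟨n, n1, n2⟩ := exists_it (K := K) p hp
    have h6 : ∀ A, n * ps K A = ps K (it K A) * n := fun A => by
      rw [ps_apply, ps_apply, ← n1, ← n2]
      simp only [mul_assoc, inv_mul_cancel_left, inv_mul_cancel, mul_one]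
    refine ⟨n⁻¹ * ps K J, fun e => ?_, fun a => ?_⟩
    · rw [inv_mul_eq_one] at e
      have e1 := n1 (SpecialLinearGroup.transvection (show (0 : Fin 5) ≠ 1 by decide) 1)
      rw [mul_inv_eq_iff_eq_mul, e, ps_apply, mul_assoc, ← (comm _ J).eq, ← mul_assoc, ← mul_assoc, mul_left_inj,
        ← map_mul, ← map_mul, it_tv] at e1
      have e2 : J.1 * Matrix.transvection 0 1 1 = Matrix.transvection 1 0 (-1) * J.1 :=
        congrArg Subtype.val (p1_injective e1)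
      have e3 := congrFun (congrFun e2 1) 0
      rw [Matrix.mul_transvection_apply_of_ne _ _ _ _ (by decide), Matrix.transvection_mul_apply_same] at e3
      have e4 : l * ((5 : ℕ) : K) = 0 := by
        have e5 : J.1 0 0 = l * ((5 : ℕ) : K) := by simp [J, J0]
        rw [← e5]
        linear_combination e3
      rcases mul_eq_zero.1 e4 with e5 | e5
      · rw [e5, zero_pow (by norm_num)] at hl'
        exact inv_ne_zero h4 hl'.symm
      · exact cast_ne p hp (by norm_num) e5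
    · rw [mul_assoc, ← map_mul, h5, map_mul, ← mul_assoc, ← mul_assoc]
      congr 1
      rw [inv_mul_eq_iff_eq_mul, ← mul_assoc, h6, mul_inv_cancel_right]
  · push Not at h
    obtain ⟨c, hc, hc1⟩ := h
    let Z : SL5 K := ⟨c • 1, by rw [det_smul, Fintype.card_fin, hc, det_one, mul_one]⟩
    refine ⟨p1 K Z, fun e => hc1 ?_, fun a => ?_⟩
    · have e1 : Z = 1 := p1_injective (e.trans (map_one _).symm)
      have e2 : (c • 1 : Matrix (Fin 5) (Fin 5) K) = 1 := congrArg Subtype.val e1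
      simpa using congrFun (congrFun e2 0) 0
    · have e1 : Z * rd K (φ a) = rd K (φ a) * Z := Subtype.ext (by
        show (c • 1 : Matrix (Fin 5) (Fin 5) K) * _ = _ * (c • 1 : Matrix (Fin 5) (Fin 5) K)
        rw [Matrix.smul_mul, Matrix.mul_smul, Matrix.one_mul, Matrix.mul_one])
      rw [ps_apply, ← mul_assoc, ← map_mul, e1, map_mul, mul_assoc, (comm Z _).eq, mul_assoc]

/-- **RHO** -/
theorem rho : RHO.{u} := by
  intro F _ _ p _ hp
  obtain ⟨φ, h1, h2⟩ := exists_rho0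
  refine ⟨((ps F).comp (rd F)).comp φ, End.noFix_of_emb0 ?_, exists_cen p hp h1 h2⟩
  have e : (emb0 (F := F)).comp (((ps F).comp (rd F)).comp φ) = ((ps (Kb F)).comp (rd (Kb F))).comp φ := by
    refine MonoidHom.ext fun a => ?_
    show emb0 (ps F (rd F (φ a))) = ps (Kb F) (rd (Kb F) (φ a))
    rw [emb0_ps]
    refine congrArg _ (Subtype.ext (Matrix.ext fun i j => ?_))
    exact map_intCast (algebraMap F (Kb F)) _
  rw [e]
  exact noFix_bar p hp h1 h2

/-- **REG5** from **UNIQ** -/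
theorem reg5_of (h : UNIQ.{u}) : REG5.{u} := End.end5 h rho

end Cfsg.Agent.E8A.Reg5.Rho
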