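import Cfsg.Agent.E8A.Reg5.Triv
import Cfsg.Agent.E8A.Reg5.Fin
import Cfsg.Agent.E8A.Reg5.Inst
import Cfsg.Agent.E8A.Reg5.Par
import Cfsg.Agent.E8A.Reg5.Alg
import Cfsg.Agent.E8A.Reg5.IcoFin
import Cfsg.Agent.E8A.Reg5.Aut
import Cfsg.Agent.E8A.Reg5.N3
import Cfsg.Agent.E8A.Reg5.Cls
import Cfsg.Agent.E8A.Reg5.Gen
import Cfsg.Agent.E8A.Reg5.Rho

/-!
# `A₅` without fixed vectors on the adjoint module of `E₈`, characteristic at least 7: the result (helper42)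
-/

set_option autoImplicit false

namespace Cfsg.Agent.E8A.Reg5

universe u

/-- **UNIQ** -/
theorem uniq : UNIQ.{u} :=
  Fin.fin triv Aut.inst Par.par Alg.ext Alg.der Alg.amal Alg.spec IcoEx.ico Aut.aut Aut.n3 Cls.cls Gen.gen

/-- **REG5** -/
theorem reg5 : REG5.{u} := Rho.reg5_of uniq

end Cfsg.Agent.E8A.Reg5
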