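import Cfsg.Agent.E8A.Reg5.Str
import Cfsg.Agent.E8A.Reg5.Iface

/-!
# `UNIQ`: the second layer of boxes (helper42)

See `notes/E8A/reg5b.md`.
-/

set_option autoImplicit false

namespace Cfsg.Agent.E8A.Reg5

open Cfsg Cfsg.Lie Matrix
open Cfsg.Agent.LangThm (van rk)
open Cfsg.Agent.ChevalleyStructure.JacMain (adA)

universe u

/-- the structure constants of `E₈` -/
noncomputable abbrev A8 : chevE8.Idx → Matrix chevE8.Idx chevE8.Idx ℤ := adA chevE8

/-- the coordinates of a family of matrices -/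
def coM {T ι R : Type*} (g : T → Matrix ι ι R) : T × ι × ι → R := fun t => g t.1 t.2.1 t.2.2

/-- the algebra map to the dual numbers given by a derivation -/
noncomputable def dual {k K : Type u} [Field k] [Field K] [Algebra k K] (D : Derivation k K K) :
    K →ₐ[k] DualNumber K where
  toFun a := TrivSqZeroExt.inl a + TrivSqZeroExt.inr (D a)
  map_one' := by ext <;> simp
  map_mul' a b := by ext <;> simp [Derivation.leibniz, mul_comm]
  map_zero' := by ext <;> simp
  map_add' a b := by ext <;> simp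
  commutes' c := by ext <;> simp [TrivSqZeroExt.algebraMap_eq_inl', Derivation.map_algebraMap]

/-- the inclusion in the dual numbers -/
noncomputable abbrev inD (k K : Type u) [Field k] [Field K] [Algebra k K] : K →ₐ[k] DualNumber K :=
  TrivSqZeroExt.inlAlgHom k K K

/-- The frames can be moved in all directions of lowest degree. -/
def Mov {ι : Type} [Fintype ι] [DecidableEq ι] (A : ι → Matrix ι ι ℤ) (d : Fin 3 → ι → ℤ) (k : Type u) {K : Type u} [Field k]
    [Field K] [Algebra k K] (U : Fin 3 → Matrix ι ι K) : Prop :=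
  ∀ (i : Fin 3) (β : ι), d i β = -(mm i : ℤ) → ∃ f : K →ₐ[k] DualNumber K, (∀ a, (f a).fst = a) ∧
    (∀ j, j ≠ i → (U j).map f = (U j).map (inD k K)) ∧
    (U i).map (inD k K) = (1 + (DualNumber.eps : DualNumber K) • ad A (Pi.single β (1 : DualNumber K))) * (U i).map f

/-- the number of the linear conditions -/
def Cnt {ι : Type} [Fintype ι] (d : Fin 3 → ι → ℤ) : Prop :=
  ∑ i : Fin 3, ((Finset.univ.filter fun a => d i a ≤ 0).card + (Finset.univ.filter fun a => d i a = -(mm i : ℤ)).card) ≤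
    2 * Fintype.card ι

/-- **TRIV**: the trivialization (helper42). -/
def TRIV : Prop := ∀ (ι : Type) [Fintype ι] [DecidableEq ι] (A : ι → Matrix ι ι ℤ) (k K : Type u) [Field k] [Field K]
  [Algebra k K] (Γ P : Type) [Group Γ] [Fintype Γ] [Fintype P] (π : Γ →* A5) (I : Ico k Γ P π) (d : Fin 3 → ι → ℤ)
  (φ : Γ →* Matrix ι ι k) (U V : Fin 3 → Matrix ι ι K), Good A k → (∀ i, GrB A (d i) (mm i)) → Rep A I φ →
    Frm A I d φ U V → (∀ v : ι → k, (∀ γ, φ γ *ᵥ v = v) → v = 0) →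
    (∀ h : ι → K, ad A h * ad A h * ad A h = ad A h → h = 0) → Cnt d → Mov A d k U → ∃ Φ, Str A I d φ U Φ

/-- **INST**: the hypotheses hold for `E₈`. -/
def INST : Prop := (∀ (k : Type u) [Field k] (p : ℕ) [CharP k p], 7 ≤ p → Good A8 k) ∧ (∀ i, GrB A8 (lam i) (mm i)) ∧
  Cnt lam ∧ Fintype.card {t : Fin 3 × chevE8.Idx // lam t.1 t.2 = -(mm t.1 : ℤ)} = 26

/-- **PAR**: a generic point of `G × P₀ × P₁ × P₂` (`718 = 248 + 170 + 156 + 144`). -/
def PAR : Prop := ∀ (k : Type u) [Field k] [IsAlgClosed k], ∃ (Ω : Type u) (_ : Field Ω) (_ : Algebra k Ω)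
  (g g' : Option (Fin 3) → Matrix chevE8.Idx chevE8.Idx Ω), (∀ c, g c * g' c = 1) ∧ (∀ c, Tw A8 1 (g c)) ∧
    (∀ i, Sh (lam i) (· ≤ 0) (g (some i))) ∧ (∀ i, Sh (lam i) (· ≤ 0) (g' (some i))) ∧
    IntermediateField.adjoin k (Set.range (coM g)) = ⊤ ∧ 718 ≤ rk k (coM g)

/-- **EXT**: adjoining independent elements. -/
def EXT : Prop := ∀ (k Ω : Type u) [Field k] [Field Ω] [Algebra k Ω] (T σ : Type) [Finite T] [Fintype σ] [DecidableEq σ]
  (x : T → Ω), IntermediateField.adjoin k (Set.range x) = ⊤ →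
    ∃ (K : Type u) (_ : Field K) (_ : Algebra k K) (j : Ω →ₐ[k] K) (b : σ → K),
      IntermediateField.adjoin k (Set.range (Sum.elim b fun t => j (x t))) = ⊤ ∧
      (Fintype.card σ : ℕ∞) + rk k x ≤ rk k (Sum.elim b fun t => j (x t)) ∧
      ∀ s, ∃ D : Derivation k K K, ∀ t, D (b t) = if t = s then 1 else 0

/-- **DER**: the rank from derivations. -/
def DER : Prop := ∀ (k K : Type u) [Field k] [Field K] [Algebra k K] (T T' : Type) [Finite T] (x : T → K) (y : T' → K),
  IntermediateField.adjoin k (Set.range x) = ⊤ → (∀ D : Derivation k K K, (∀ t, D (y t) = 0) → ∀ t, D (x t) = 0) →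
    rk k x ≤ rk k y

/-- **AMAL**: points with the same vanishing ideal become equal in a common extension. -/
def AMAL : Prop := ∀ (k Ω Ω' : Type u) [Field k] [Field Ω] [Field Ω'] [Algebra k Ω] [Algebra k Ω'] (T : Type) (v : T → Ω)
  (v' : T → Ω'), van k v = van k v' → ∃ (K : Type u) (_ : Field K) (_ : Algebra k K) (f : Ω →ₐ[k] K) (f' : Ω' →ₐ[k] K),
    ∀ t, f (v t) = f' (v' t)

/-- **SPEC**: specialization of an intertwining automorphism. -/
def SPEC : Prop := ∀ (ι : Type) [Fintype ι] [DecidableEq ι] (A : ι → Matrix ι ι ℤ) (k K : Type u) [Field k] [IsAlgClosed k]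
  [Field K] [Algebra k K] (T : Type) (φ φ' : T → Matrix ι ι k) (x x' : Matrix ι ι K), x * x' = 1 → Tw A 1 x →
    (∀ t, fk K (φ' t) * x = x * fk K (φ t)) →
    ∃ y y' : Matrix ι ι k, y * y' = 1 ∧ Tw A 1 y ∧ ∀ t, φ' t * y = y * φ t

/-- **FIN**: the assembly. -/
def FIN : Prop := TRIV.{u} → INST.{u} → PAR.{u} → EXT.{u} → DER.{u} → AMAL.{u} → SPEC.{u} → ICO.{u} → AUT.{u} → N3.{u} →
  CLS.{u} → GEN.{u} → UNIQ.{u}

end Cfsg.Agent.E8A.Reg5
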