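import Cfsg.Agent.E8A.Reg5.Sec
import Cfsg.Agent.E8A.Reg5.Iface2

/-!
# Dimensions of the spaces of sections (helper42)
-/

set_option autoImplicit false
set_option linter.unusedSectionVars false

namespace Cfsg.Agent.E8A.Reg5

open Matrix MvPolynomial Ico Module

universe u

section Lin

variable {K M N : Type*} [Field K] [AddCommGroup M] [Module K M] [AddCommGroup N] [Module K N]

theorem finrank_eq_map_add (W : Submodule K M) [FiniteDimensional K W] (f : M →ₗ[K] N) :
    finrank K W = finrank K (W.map f) + finrank K (W ⊓ LinearMap.ker f : Submodule K M) := by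
  rw [← (f.domRestrict W).finrank_range_add_finrank_ker, LinearMap.range_domRestrict, LinearMap.ker_domRestrict,
    ← Submodule.finrank_map_subtype_eq, Submodule.map_comap_subtype]

theorem finrank_ge_map_add {W W' : Submodule K M} [FiniteDimensional K W] (f : M →ₗ[K] N) {g : M →ₗ[K] M}
    (hg : Function.Injective g) (h : ∀ x ∈ W', g x ∈ W ∧ f (g x) = 0) :
    finrank K (W.map f) + finrank K W' ≤ finrank K W := by
  rw [finrank_eq_map_add W f, (Submodule.equivMapOfInjective g hg W').finrank_eq]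
  have : FiniteDimensional K (W ⊓ LinearMap.ker f : Submodule K M) := Submodule.finiteDimensional_inf_left _ _
  refine Nat.add_le_add_left (Submodule.finrank_mono ?_) _
  rintro _ ⟨x, hx, rfl⟩
  exact h x hx

theorem finrank_le_map_add {W W' : Submodule K M} [FiniteDimensional K W] [FiniteDimensional K W'] (f : M →ₗ[K] N)
    (g : M →ₗ[K] M) (h : ∀ x ∈ W, f x = 0 → ∃ y ∈ W', g y = x) : finrank K W ≤ finrank K (W.map f) + finrank K W' := by
  rw [finrank_eq_map_add W f]
  refine Nat.add_le_add_left (le_trans (Submodule.finrank_mono (t := W'.map g) ?_) (Submodule.finrank_map_le g W')) _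
  rintro x ⟨h1, h2⟩
  exact h x h1 h2

end Lin

variable {ι : Type} [Fintype ι] [DecidableEq ι] {A : ι → Matrix ι ι ℤ}
variable {k : Type u} [Field k] {K : Type u} [Field K] [Algebra k K]
variable {Γ P : Type} [Group Γ] [Fintype Γ] [Fintype P] {π : Γ →* A5}
variable {I : Ico k Γ P π} {d : Fin 3 → ι → ℤ} {φ : Γ →* Matrix ι ι k} {U V : Fin 3 → Matrix ι ι K}

variable (I φ K) in
/-- the invariant sections -/
noncomputable def VS (n : ℕ) : Submodule K (ι → Fm K) where
  carrier := {x | Sec I φ n x}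
  add_mem' := Sec.add
  zero_mem' := sec_zero
  smul_mem' c _ hx := Sec.smul hx c

variable (I d φ U) in
/-- the sections -/
noncomputable def HS (n : ℕ) : Submodule K (ι → Fm K) where
  carrier := {x | Hs I d φ U n x}
  add_mem' hx hy := ⟨hx.sec.add hy.sec, fun i => (hx.cd i).add (hy.cd i)⟩
  zero_mem' := ⟨sec_zero, cd_zero⟩
  smul_mem' c _ hx := ⟨hx.sec.smul c, fun i => by rw [smul_eq_C]; exact (hx.cd i).mul _⟩

variable (I K ι) in
/-- the value at the free point -/
noncomputable def evv : (ι → Fm K) →ₗ[K] (ι → K) := (ev K I.v0).toLinearMap.compLeft ι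

theorem evv_apply (x : ι → Fm K) : evv ι K I x = fun a => ev K I.v0 (x a) := rfl

variable (ι) in
/-- multiplication by a form -/
noncomputable def mF (f : Fm K) : (ι → Fm K) →ₗ[K] (ι → Fm K) := (LinearMap.lsmul (Fm K) (ι → Fm K) f).restrictScalars K

theorem mF_apply (f : Fm K) (x : ι → Fm K) : mF ι f x = f • x := rfl

theorem evv_smul (f : Fm K) (x : ι → Fm K) : evv ι K I (f • x) = ev K I.v0 f • evv ι K I x := by
  funext a
  exact map_mul (ev K I.v0) _ _

theorem fin_VS (n : ℕ) : FiniteDimensional K (VS K I φ n) := by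
  have h1 : (Submodule.pi Set.univ fun _ : ι => homogeneousSubmodule (Fin 2) K n).FG :=
    Submodule.fg_pi fun _ => homogeneousSubmodule_fg _ _ n
  have h2 := Module.Finite.iff_fg.2 h1
  exact Submodule.finiteDimensional_of_le (S₂ := Submodule.pi Set.univ fun _ : ι => homogeneousSubmodule (Fin 2) K n)
    fun x hx a _ => Sec.hom hx a

theorem fin_HS (n : ℕ) : FiniteDimensional K (HS I d φ U n) :=
  have := fin_VS (K := K) (I := I) (φ := φ) n
  Submodule.finiteDimensional_of_le (S₂ := VS K I φ n) fun _ hx => Hs.sec hx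

theorem ev_Q : ev K I.v0 (I.Q K) = 0 := by
  unfold Ico.Q
  rw [I.ev_pw, Finset.prod_eq_zero (Finset.mem_univ (I.b none)), map_zero]
  rw [I.b_cl]
  show dt I.v0 I.v0 ^ 1 = 0
  rw [dt_self, pow_one]

variable (I K) in
theorem exists_form (e : ℕ) : ∃ f : Fm K, f.IsHomogeneous (60 * (e + 1)) ∧ ev K I.v0 f ≠ 0 ∧
    ∀ x, I.cl x = none → x ≠ I.b none → ev K (I.v x) f = 0 := by
  classical
  let s := (Finset.univ.filter fun x => I.cl x = none).erase (I.b none)
  have hs : s.card = 59 := by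
    have h0 : I.b none ∈ Finset.univ.filter fun x => I.cl x = none := Finset.mem_filter.2 ⟨Finset.mem_univ _, I.b_cl _⟩
    rw [Finset.card_erase_of_mem h0, I.card_cl]
    rfl
  refine ⟨(∏ x ∈ s, lf K (I.v x) ^ 1) * lf K (I.v (I.b (some 0))) ^ (60 * e + 1), ?_, ?_, fun x h1 h2 => ?_⟩
  · have := (prod_hom (R := K) I.v (fun _ => 1) s).mul ((lf_hom (R := K) (I.v (I.b (some 0)))).pow (60 * e + 1))
    rwa [Finset.sum_const, hs, show 59 • 1 + 1 * (60 * e + 1) = 60 * (e + 1) by rw [smul_eq_mul]; ring] at this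
  · rw [map_mul, map_prod, map_pow, ev_lf]
    refine mul_ne_zero (Finset.prod_ne_zero_iff.2 fun x hx => ?_) (pow_ne_zero _ ?_)
    · rw [pow_one, ev_lf]
      exact (isUnit_algebraMap (I.indep _ _ (Finset.ne_of_mem_erase hx))).ne_zero
    · refine (isUnit_algebraMap (I.indep _ _ fun h => ?_)).ne_zero
      have := I.b_cl (some 0)
      rw [h, I.b_cl] at this
      cases this
  · rw [map_mul, map_prod, Finset.prod_eq_zero (i := x), zero_mul]
    · exact Finset.mem_erase.2 ⟨h2, Finset.mem_filter.2 ⟨Finset.mem_univ _, h1⟩⟩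
    · rw [pow_one, ev_lf, dt_self, map_zero]

theorem exists_sec (hG : Good A k) (hφ : Rep A I φ) (e : ℕ) (w : ι → K) :
    ∃ x ∈ VS K I φ (60 * (e + 1)), evv ι K I x = w := by
  classical
  obtain ⟨f, h1, h2, h3⟩ := exists_form K I e
  have h4 : (2 : K) ≠ 0 := by
    have := (isUnit_algebraMap (R := K) hG.two).ne_zero
    rwa [map_ofNat] at this
  let w' : ι → K := (2 * ev K I.v0 f)⁻¹ • w
  have hC : ∀ γ, fk (Fm K) (φ γ) *ᵥ (fun a => C (w' a)) = fun a => C ((fk K (φ γ) *ᵥ w') a) := fun γ =>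
    (mulVec_map (C : K →+* Fm K) (fk K (φ γ)) w').symm
  refine ⟨∑ γ, I.s K γ f • (fk (Fm K) (φ γ⁻¹) *ᵥ fun a => C (w' a)), ⟨fun a => ?_, fun γ' => ?_⟩, ?_⟩
  · rw [Finset.sum_apply]
    refine IsHomogeneous.sum _ _ _ fun γ _ => ?_
    rw [hC]
    exact (I.s_hom γ h1).mul (isHomogeneous_C _ _)
  · rw [Matrix.mulVec_sum]
    conv_rhs => rw [← Equiv.sum_comp (Equiv.mulRight γ')]
    funext a
    rw [Finset.sum_apply, Finset.sum_apply, map_sum]
    refine Finset.sum_congr rfl fun γ _ => ?_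
    rw [Matrix.mulVec_smul, Matrix.mulVec_mulVec, ← fk_mul, ← map_mul, Equiv.coe_mulRight, _root_.mul_inv_rev,
      mul_inv_cancel_left, hC, Pi.smul_apply, Pi.smul_apply, smul_eq_mul, smul_eq_mul, map_mul, I.s_s, I.s_C]
  · have h5 : ∀ γ, evv ι K I (I.s K γ f • (fk (Fm K) (φ γ⁻¹) *ᵥ fun a => C (w' a))) =
        ev K ((I.ρ γ).1 *ᵥ I.v0) f • (fk K (φ γ⁻¹) *ᵥ w') := by
      intro γ
      rw [evv_smul, hC, ← ev_sb]
      congr 1
      funext a
      exact ev_C _ _
    rw [map_sum, Finset.sum_eq_add_of_mem 1 I.z (Finset.mem_univ _) (Finset.mem_univ _) I.z_ne.symm]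
    · have h6 : φ I.z⁻¹ = 1 := by rw [← mul_one (φ I.z⁻¹), ← hφ.z, ← map_mul, inv_mul_cancel, map_one, hφ.z]
      rw [h5, h5, inv_one, map_one φ, h6, fk_one, Matrix.one_mulVec, map_one, I.ρ_z, Matrix.neg_mulVec,
        show (1 : SpecialLinearGroup (Fin 2) k).1 = 1 from rfl, Matrix.one_mulVec, ← neg_one_smul k I.v0, ev_smul h1,
        Even.neg_one_pow ⟨30 * (e + 1), by ring⟩, map_one, one_mul, ← add_smul, ← two_mul, smul_smul,
        mul_inv_cancel₀ (mul_ne_zero h4 h2), one_smul]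
    · intro γ _ hγ
      rw [h5]
      unfold Ico.v0
      rw [I.mv_v, ev_smul h1, h3 _ (by rw [I.mv_cl, I.b_cl]) (fun h => (I.free γ h).elim hγ.1 hγ.2), mul_zero, zero_smul]

theorem le_finrank_VS (hG : Good A k) (hφ : Rep A I φ) (e : ℕ) : e * Fintype.card ι ≤ finrank K (VS K I φ (60 * e)) := by
  induction e with
  | zero => rw [zero_mul]; exact Nat.zero_le _
  | succ e ih =>
    have := fin_VS (K := K) (I := I) (φ := φ) (60 * (e + 1))
    have h1 := finrank_ge_map_add (W := VS K I φ (60 * (e + 1))) (W' := VS K I φ (60 * e)) (evv ι K I)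
      (g := mF ι (I.Q K)) (fun x y h => funext fun a => (I.pw_regular eQ).left (congrFun h a)) (fun x hx => by
        refine ⟨?_, by rw [mF_apply, evv_smul, ev_Q, zero_smul]⟩
        have := Sec.mul hx (I.pw_hom eQ) (fun γ => I.s_pw γ eQ)
        rwa [dg_eQ, show 60 + 60 * e = 60 * (e + 1) by ring] at this)
    rw [show (VS K I φ (60 * (e + 1))).map (evv ι K I) = ⊤ from eq_top_iff.2 fun w _ => exists_sec hG hφ e w,
      finrank_top, Module.finrank_fintype_fun_eq_card] at h1
    rw [add_mul, one_mul]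
    omega

theorem finrank_VS_le (hd : ∀ i, GrB A (d i) (mm i)) (hF : Frm A I d φ U V) (hc : Cnt d) (e : ℕ) :
    finrank K (VS K I φ (60 * e)) ≤ finrank K (HS I d φ U (60 * e)) + 2 * Fintype.card ι := by
  have := fin_VS (K := K) (I := I) (φ := φ) (60 * e)
  have := fin_HS (I := I) (d := d) (φ := φ) (U := U) (60 * e)
  let T : Type := Σ i : Fin 3, {a // d i a ≤ 0} ⊕ {a // d i a = -(mm i : ℤ)}
  let L : Fin 3 → ι → ℕ → (ι → Fm K) →ₗ[K] K := fun i a n =>
    Polynomial.lcoeff K n ∘ₗ (I.c K i).toLinearMap ∘ₗ LinearMap.proj a ∘ₗ (Matrix.mulVecLin (cs (U i))).restrictScalars K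
  let f : (ι → Fm K) →ₗ[K] (T → K) := LinearMap.pi fun t =>
    Sum.elim (fun a => L t.1 a.1 (-d t.1 a.1).toNat) (fun a => L t.1 a.1 0) t.2
  have h1 := finrank_le_map_add (W := VS K I φ (60 * e)) (W' := HS I d φ U (60 * e)) f LinearMap.id (fun x hx h0 => by
    refine ⟨x, ⟨hx, fun i a => ?_⟩, rfl⟩
    rw [I.dvd_iff i (hom_mulVec _ hx.hom a), Polynomial.X_pow_dvd_iff]
    intro n hn
    by_contra h2
    obtain ⟨t, ht⟩ := hF.cg i hx.hom (hx.inv _) a n h2
    have h3 := (hd i).xp_cast a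
    have h4 := (hd i).lb a
    have h5 : (0 : ℤ) < mm i := Int.natCast_pos.2 (mm_pos i)
    have h6 : t < 1 := by
      by_contra h7
      have := Int.mul_le_mul_of_nonneg_left (not_lt.1 h7) h5.le
      omega
    have h7 : -1 ≤ t := by
      by_contra h7
      have := Int.mul_le_mul_of_nonneg_left (show t ≤ -2 by omega) h5.le
      omega
    apply h2
    rcases (show t = 0 ∨ t = -1 by omega) with rfl | rfl
    · rw [show n = (-d i a).toNat by omega]
      exact congrFun h0 ⟨i, Sum.inl ⟨a, by omega⟩⟩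
    · rw [show n = 0 by omega]
      exact congrFun h0 ⟨i, Sum.inr ⟨a, by omega⟩⟩)
  have h2 := Submodule.finrank_le ((VS K I φ (60 * e)).map f)
  have h3 : Fintype.card T ≤ 2 * Fintype.card ι := by
    refine le_trans (le_of_eq ?_) hc
    rw [Fintype.card_sigma]
    exact Finset.sum_congr rfl fun i _ => by rw [Fintype.card_sum, Fintype.card_subtype, Fintype.card_subtype]
  rw [Module.finrank_fintype_fun_eq_card] at h2
  omega

theorem finrank_HS_succ (e : ℕ) : finrank K (HS I d φ U (60 * (e + 1))) ≤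
    finrank K ((HS I d φ U (60 * (e + 1))).map (evv ι K I)) + finrank K (HS I d φ U (60 * e)) := by
  have := fin_HS (I := I) (d := d) (φ := φ) (U := U) (60 * e)
  have := fin_HS (I := I) (d := d) (φ := φ) (U := U) (60 * (e + 1))
  refine finrank_le_map_add _ (mF ι (I.Q K)) fun x hx h0 => ?_
  obtain ⟨y, h1, h2⟩ := Hs.quot hx (congrFun h0)
  exact ⟨y, h2, h1.symm⟩

theorem fix_eq_zero (I : Ico k Γ P π) (h : ∀ v : ι → k, (∀ γ, φ γ *ᵥ v = v) → v = 0) {R : Type*} [CommRing R] [Algebra k R]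
    {w : ι → R} (hw : ∀ γ, fk R (φ γ) *ᵥ w = w) : w = 0 := by
  have h1 : ∑ γ, φ γ = 0 := ext_mulVec fun j => by
    rw [Matrix.zero_mulVec]
    refine h _ fun γ => ?_
    rw [Matrix.mulVec_mulVec, Finset.mul_sum, ← Equiv.sum_comp (Equiv.mulLeft γ) fun γ => φ γ]
    simp only [← map_mul, Equiv.coe_mulLeft]
  have h2 : ∑ γ, fk R (φ γ) = 0 := by
    ext a b
    have := congrArg (algebraMap k R) (congrFun (congrFun h1 a) b)
    rw [Matrix.sum_apply, map_sum, Matrix.zero_apply, map_zero] at this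
    rw [Matrix.sum_apply]
    exact this
  have h3 := congrArg (· *ᵥ w) h2
  simp only [Matrix.sum_mulVec, hw, Matrix.zero_mulVec, Finset.sum_const, Finset.card_univ] at h3
  funext a
  refine (isUnit_algebraMap (R := R) I.card).isRegular.left ?_
  have h4 := congrFun h3 a
  rw [Pi.smul_apply, nsmul_eq_mul] at h4
  show _ * _ = _ * (0 : R)
  rw [map_natCast, mul_zero]
  exact h4

theorem Sec.eq_zero (h : ∀ v : ι → k, (∀ γ, φ γ *ᵥ v = v) → v = 0) {x : ι → Fm K} (hx : Sec I φ 0 x) : x = 0 := by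
  refine fix_eq_zero I h fun γ => ?_
  rw [← hx.inv]
  funext a
  rw [hom_zero_eq (hx.hom a) I.v0, I.s_C]

end Cfsg.Agent.E8A.Reg5
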