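import Cfsg.Agent.E8A.Reg5.Ico
import Cfsg.Agent.Lib.VonDyck

/-!
# The icosahedral group on the projective line: existence (helper8)
-/

set_option autoImplicit false

namespace Cfsg.Agent.E8A.Reg5.IcoEx

open Matrix Cfsg.Agent.Lib.VonDyck

universe u

variable {k : Type u} [Field k]

theorem val_mul (A B : SpecialLinearGroup (Fin 2) k) : (A * B).1 = A.1 * B.1 := rfl

theorem val_one : (1 : SpecialLinearGroup (Fin 2) k).1 = 1 := rfl

theorem val_neg (A : SpecialLinearGroup (Fin 2) k) : (-A).1 = -A.1 := rfl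

theorem val_pow (A : SpecialLinearGroup (Fin 2) k) (n : ℕ) : (A ^ n).1 = A.1 ^ n := by
  induction n with
  | zero => rw [pow_zero, pow_zero, val_one]
  | succ n ih => rw [pow_succ, pow_succ, val_mul, ih]

/-! ### determinants of pairs of vectors -/

theorem dt_self (v : Fin 2 → k) : dt v v = 0 := by unfold dt; ring

theorem dt_smul_left (c : k) (v w : Fin 2 → k) : dt (c • v) w = c * dt v w := by
  simp only [dt, Pi.smul_apply, smul_eq_mul]; ring

theorem dt_smul_right (c : k) (v w : Fin 2 → k) : dt v (c • w) = c * dt v w := by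
  simp only [dt, Pi.smul_apply, smul_eq_mul]; ring

theorem dt_mulVec (M : SpecialLinearGroup (Fin 2) k) (v w : Fin 2 → k) : dt (M.1 *ᵥ v) (M.1 *ᵥ w) = dt v w := by
  have h := M.2
  rw [det_fin_two] at h
  simp only [dt, mulVec, dotProduct, Fin.sum_univ_two]
  linear_combination (v 0 * w 1 - v 1 * w 0) * h

theorem exists_dt_one {v : Fin 2 → k} (hv : v ≠ 0) : ∃ u, dt v u = 1 := by
  by_cases h0 : v 0 = 0
  · have h1 : v 1 ≠ 0 := fun h1 => hv (by ext i; fin_cases i <;> simp [h0, h1])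
    exact ⟨![-(v 1)⁻¹, 0], by simp [dt, h1]⟩
  · exact ⟨![0, (v 0)⁻¹], by simp [dt, h0]⟩

theorem eq_comb {v u : Fin 2 → k} (h : dt v u = 1) (w : Fin 2 → k) : w = dt w u • v + dt v w • u := by
  unfold dt at h
  ext i
  fin_cases i
  · simp only [dt, Pi.add_apply, Pi.smul_apply, smul_eq_mul, Fin.zero_eta]
    linear_combination (-(w 0)) * h
  · simp only [dt, Pi.add_apply, Pi.smul_apply, smul_eq_mul, Fin.mk_one]
    linear_combination (-(w 1)) * h

theorem dt_eq_zero_iff {v : Fin 2 → k} (hv : v ≠ 0) (w : Fin 2 → k) : dt v w = 0 ↔ ∃ c : k, w = c • v := by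
  constructor
  · intro h
    obtain ⟨u, hu⟩ := exists_dt_one hv
    exact ⟨dt w u, by conv_lhs => rw [eq_comb hu w, h, zero_smul, add_zero]⟩
  · rintro ⟨c, rfl⟩
    rw [dt_smul_right, dt_self, mul_zero]

theorem mulVec_ne_zero (M : SpecialLinearGroup (Fin 2) k) {v : Fin 2 → k} (hv : v ≠ 0) : M.1 *ᵥ v ≠ 0 := by
  obtain ⟨u, hu⟩ := exists_dt_one hv
  intro h
  rw [← dt_mulVec M, h] at hu
  simp [dt] at hu

theorem exists_eigen [IsAlgClosed k] (M : Matrix (Fin 2) (Fin 2) k) : ∃ v : Fin 2 → k, v ≠ 0 ∧ ∃ c : k, M *ᵥ v = c • v := by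
  obtain ⟨c, hc⟩ := Module.End.exists_eigenvalue (Matrix.toLin' M)
  obtain ⟨v, hv⟩ := hc.exists_hasEigenvector
  exact ⟨v, hv.2, c, by simpa using hv.apply_eq_smul⟩

/-- an element of finite order prime to the characteristic with a fixed vector is trivial -/
theorem eq_one_of_fix (M : SpecialLinearGroup (Fin 2) k) {v : Fin 2 → k} (hv : v ≠ 0) (h : M.1 *ᵥ v = v) {n : ℕ}
    (hn : (n : k) ≠ 0) (hM : M ^ n = 1) : M = 1 := by
  obtain ⟨u, hu⟩ := exists_dt_one hv
  have h1 : dt v (M.1 *ᵥ u) = 1 := by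
    have h0 := dt_mulVec M v u
    rwa [h, hu] at h0
  have h2 := eq_comb hu (M.1 *ᵥ u)
  rw [h1, one_smul] at h2
  set a := dt (M.1 *ᵥ u) u
  have h3 : ∀ j : ℕ, (M ^ j).1 *ᵥ u = ((j : k) * a) • v + u := by
    intro j
    induction j with
    | zero => rw [pow_zero, val_one]; simp
    | succ j ih =>
      rw [pow_succ', val_mul, ← mulVec_mulVec, ih, mulVec_add, mulVec_smul, h, h2, ← add_assoc,
        ← add_smul]
      congr 2; push_cast; ring
  have h4 := h3 n
  rw [hM, val_one, one_mulVec, right_eq_add, smul_eq_zero] at h4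
  have h5 : a = 0 := (mul_eq_zero.1 (h4.resolve_right hv)).resolve_left hn
  rw [h5, zero_smul, zero_add] at h2
  apply Subtype.ext
  rw [← Matrix.toLin'.injective.eq_iff]
  refine LinearMap.ext fun w => ?_
  rw [Matrix.toLin'_apply, Matrix.toLin'_apply, val_one, one_mulVec, eq_comb hu w, mulVec_add,
    mulVec_smul, mulVec_smul, h, h2]

/-- the second eigenvector -/
theorem exists_second (M : SpecialLinearGroup (Fin 2) k) {v : Fin 2 → k} (hv : v ≠ 0) {η : k} (h : M.1 *ᵥ v = η • v)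
    (hη : η ^ 2 ≠ 1) : ∃ w, M.1 *ᵥ w = η⁻¹ • w ∧ dt v w = 1 := by
  obtain ⟨u, hu⟩ := exists_dt_one hv
  have h1 : η * dt v (M.1 *ᵥ u) = 1 := by rw [← dt_smul_left, ← h, dt_mulVec, hu]
  have h0 : η ≠ 0 := left_ne_zero_of_mul_eq_one h1
  have h2 := eq_comb hu (M.1 *ᵥ u)
  rw [← inv_eq_of_mul_eq_one_right h1] at h2
  set a := dt (M.1 *ᵥ u) u
  have h3 : η⁻¹ - η ≠ 0 := by
    intro h3
    apply hη
    rw [sub_eq_zero] at h3
    rw [pow_two]
    nth_rewrite 1 [← h3]
    exact inv_mul_cancel₀ h0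
  refine ⟨(a / (η⁻¹ - η)) • v + u, ?_, ?_⟩
  · rw [mulVec_add, mulVec_smul, h, h2, smul_add, smul_smul, smul_smul, ← add_assoc, ← add_smul]
    congr 2
    field_simp
    ring
  · simp only [dt, Pi.add_apply, Pi.smul_apply, smul_eq_mul] at hu ⊢
    linear_combination hu

/-! ### the group -/

/-- the abstract properties of the binary icosahedral group -/
structure Bin (k : Type u) [Field k] (Γ : Type) [Group Γ] (π : Γ →* A5) (ρ : Γ →* SpecialLinearGroup (Fin 2) k)
    (z : Γ) : Prop where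
  inj : Function.Injective ρ
  surj : Function.Surjective π
  ρ_z : (ρ z).1 = -1
  ker : ∀ γ, π γ = 1 ↔ γ = 1 ∨ γ = z
  perf : ∀ χ : Γ →* kˣ, χ = 1

theorem exists_bin [IsAlgClosed k] : ∃ (Γ : Type) (_ : Group Γ) (_ : Fintype Γ) (π : Γ →* A5)
    (ρ : Γ →* SpecialLinearGroup (Fin 2) k) (z : Γ), Bin k Γ π ρ z := by
  obtain ⟨ζ, hζ⟩ := IsAlgClosed.exists_root (Polynomial.cyclotomic 5 k) (by
    rw [Polynomial.degree_cyclotomic]; decide)
  have : Fact (Nat.Prime 5) := ⟨by norm_num⟩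
  have h : ζ ^ 4 + ζ ^ 3 + ζ ^ 2 + ζ + 1 = 0 := by
    rw [Polynomial.IsRoot.def, Polynomial.cyclotomic_prime] at hζ
    simp [Finset.sum_range_succ] at hζ
    linear_combination hζ
  have h5 : ζ ^ 5 = 1 := by linear_combination (ζ - 1) * h
  let X : SpecialLinearGroup (Fin 2) k := ⟨!![0, 1; -1, 0], by simp [det_fin_two]⟩
  let Y : SpecialLinearGroup (Fin 2) k := ⟨!![0, ζ; -ζ ^ 4, 1], by simp [det_fin_two]; linear_combination h5⟩
  have hX : X ^ 2 = -1 := by
    apply Subtype.ext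
    rw [val_pow, val_neg, val_one]
    ext i j
    fin_cases i <;> fin_cases j <;> simp [X, pow_succ, mul_apply, Fin.sum_univ_two]
  have hY : Y ^ 3 = -1 := by
    apply Subtype.ext
    rw [val_pow, val_neg, val_one]
    ext i j
    fin_cases i <;> fin_cases j <;> simp [Y, pow_succ, mul_apply, Fin.sum_univ_two]
    · linear_combination h5
    · linear_combination (-ζ) * h5
    · left; linear_combination (-1 : k) * h5
    · linear_combination (-2) * h5
  have hXY : (X * Y) ^ 5 = -1 := by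
    apply Subtype.ext
    rw [val_pow, val_neg, val_one, val_mul]
    ext i j
    fin_cases i <;> fin_cases j <;> simp [X, Y, pow_succ, mul_apply, Fin.sum_univ_two]
    · linear_combination (ζ ^ 15 + ζ ^ 10 + ζ ^ 5 + 1) * h5
    · linear_combination h + (ζ * (ζ ^ 10 + ζ ^ 5 + 1) + ζ ^ 3 * (ζ ^ 5 + 1) + (ζ ^ 5 + 1) + ζ ^ 2) * h5
    · linear_combination h5
  let Z : Subgroup (SpecialLinearGroup (Fin 2) k) :=
    { carrier := {s | s = 1 ∨ s = -1}
      mul_mem' := by rintro a b (rfl | rfl) (rfl | rfl) <;> simp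
      one_mem' := Or.inl rfl
      inv_mem' := by rintro a (rfl | rfl) <;> simp }
  have hZ : ∀ s, s ∈ Z ↔ s = 1 ∨ s = -1 := fun _ => Iff.rfl
  have : Z.Normal := ⟨by rintro a (rfl | rfl) g <;> simp [hZ]⟩
  have hm : ∀ s : SpecialLinearGroup (Fin 2) k, (QuotientGroup.mk' Z) s = 1 ↔ s = 1 ∨ s = -1 := fun s =>
    QuotientGroup.eq_one_iff s
  obtain ⟨φ, φ1, φ2⟩ := exists_hom_alternatingFive (a := QuotientGroup.mk' Z X) (b := QuotientGroup.mk' Z Y)
    (by rw [← map_pow, hX, hm]; exact Or.inr rfl) (by rw [← map_pow, hY, hm]; exact Or.inr rfl)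
    (by rw [← map_mul, ← map_pow, hXY, hm]; exact Or.inr rfl)
  have hφ : Function.Injective φ := by
    rw [← MonoidHom.ker_eq_bot_iff]
    refine φ.normal_ker.eq_bot_or_eq_top.resolve_right fun h1 => ?_
    have h3 : φ a5 = 1 := by rw [← MonoidHom.mem_ker, h1]; trivial
    rw [φ1, hm] at h3
    rcases h3 with h3 | h3 <;> simpa [X] using congrArg (fun s : SpecialLinearGroup (Fin 2) k => s.1 0 1) h3
  let G : Subgroup (A5 × SpecialLinearGroup (Fin 2) k) :=
    (φ.comp (MonoidHom.fst _ _)).eqLocus ((QuotientGroup.mk' Z).comp (MonoidHom.snd _ _))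
  have hG : ∀ g, g ∈ G ↔ φ g.1 = QuotientGroup.mk' Z g.2 := fun _ => Iff.rfl
  let π : G →* A5 := (MonoidHom.fst _ _).comp G.subtype
  let ρ : G →* SpecialLinearGroup (Fin 2) k := (MonoidHom.snd _ _).comp G.subtype
  let z : G := ⟨(1, -1), by rw [hG, map_one, eq_comm, hm]; exact Or.inr rfl⟩
  let x : G := ⟨(a5, X), φ1⟩
  let y : G := ⟨(b5, Y), φ2⟩
  have hker : ∀ γ, π γ = 1 ↔ γ = 1 ∨ γ = z := by
    rintro ⟨⟨a, s⟩, hg⟩
    constructor
    · intro h1
      have h3 : a = 1 := h1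
      subst h3
      rw [hG, map_one, eq_comm, hm] at hg
      rcases hg with rfl | rfl
      · exact Or.inl rfl
      · exact Or.inr rfl
    · rintro (h1 | h1) <;> rw [h1]
      · exact map_one _
      · rfl
  have hsurj : Function.Surjective π := fun a => by
    obtain ⟨s, hs⟩ := QuotientGroup.mk'_surjective Z (φ a)
    exact ⟨⟨(a, s), hs.symm⟩, rfl⟩
  have hinj : Function.Injective ρ := by
    rintro ⟨⟨a, s⟩, hg⟩ ⟨⟨b, t⟩, hg'⟩ h1
    have h3 : s = t := h1
    subst h3
    have h4 : a = b := hφ (((hG _).1 hg).trans ((hG _).1 hg').symm)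
    subst h4
    rfl
  have hfin : Finite G := by
    have h1 : Finite π.ker := by
      refine Set.Finite.to_subtype (((Set.finite_singleton z).insert 1).subset fun γ hγ => (hker γ).1 hγ)
    exact (MonoidHom.finite_iff_finite_ker_range π).2 ⟨h1, inferInstance⟩
  have hx : x ^ 2 = z := Subtype.ext (Prod.ext a5_sq hX)
  have hy : y ^ 3 = z := Subtype.ext (Prod.ext b5_pow hY)
  have hxy : (x * y) ^ 5 = z := Subtype.ext (Prod.ext ab5_pow hXY)
  have hz : z ^ 2 = 1 := Subtype.ext (Prod.ext (one_pow 2) (by simp [z]))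
  have hperf : ∀ χ : G →* kˣ, χ = 1 := by
    intro χ
    have e1 := congrArg χ hx
    have e2 := congrArg χ hy
    have e3 := congrArg χ hxy
    have e4 := congrArg χ hz
    simp only [map_pow, map_mul, map_one] at e1 e2 e3 e4
    generalize hA : χ x = A at *
    generalize hB : χ y = B at *
    generalize hC : χ z = C at *
    have f1 : (A * B) ^ 12 = 1 := by
      rw [mul_pow, show A ^ 12 = ((A ^ 2) ^ 2) ^ 3 by group, show B ^ 12 = ((B ^ 3) ^ 2) ^ 2 by group, e1, e2, e4]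
      simp
    have f2 : (A * B) ^ 10 = 1 := by rw [show (A * B) ^ 10 = ((A * B) ^ 5) ^ 2 by group, e3, e4]
    have f3 : (A * B) ^ 2 = 1 := by
      rw [show (A * B) ^ 12 = (A * B) ^ 10 * (A * B) ^ 2 by group, f2, one_mul] at f1
      exact f1
    have f4 : B = 1 := by
      rw [mul_pow, e1, ← e2] at f3
      have f5 : B ^ 6 = 1 := by rw [show B ^ 6 = (B ^ 3) ^ 2 by group, e2, e4]
      rw [show B ^ 6 = B ^ 3 * B ^ 2 * B by group, f3, one_mul] at f5
      exact f5
    have f5 : C = 1 := by rw [← e2, f4, one_pow]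
    have f6 : A = 1 := by
      rw [f4, mul_one, f5, show A ^ 5 = (A ^ 2) ^ 2 * A by group, e1, e4, one_mul] at e3
      exact e3
    have f7 : χ.ker.map π = ⊤ := by
      rw [eq_top_iff, ← closure_a5_b5, Subgroup.closure_le]
      rintro a (rfl | rfl)
      · exact ⟨x, hA.trans f6, rfl⟩
      · exact ⟨y, hB.trans f4, rfl⟩
    refine MonoidHom.ext fun γ => ?_
    obtain ⟨δ, hδ, e⟩ : π γ ∈ χ.ker.map π := by rw [f7]; trivial
    have f8 : π (δ⁻¹ * γ) = 1 := by rw [map_mul, map_inv, e, inv_mul_cancel]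
    have f9 : χ (δ⁻¹ * γ) = 1 := by
      rcases (hker _).1 f8 with h1 | h1 <;> rw [h1]
      · exact map_one _
      · exact hC.trans f5
    rwa [map_mul, map_inv, (MonoidHom.mem_ker.1 hδ), inv_one, one_mul] at f9
  have : Small.{0} G := inferInstance
  let e : Shrink.{0} G ≃* G := Shrink.mulEquiv
  have : Finite (Shrink.{0} G) := Finite.of_equiv _ e.symm.toEquiv
  refine ⟨Shrink.{0} G, inferInstance, Fintype.ofFinite _, π.comp e.toMonoidHom, ρ.comp e.toMonoidHom, e.symm z,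
    hinj.comp e.injective, hsurj.comp e.surjective, ?_, fun γ => ?_, fun χ => ?_⟩
  · show (ρ (e (e.symm z))).1 = -1
    rw [e.apply_symm_apply]; rfl
  · show π (e γ) = 1 ↔ _
    rw [hker, e.map_eq_one_iff, e.eq_symm_apply]
  · have h1 := hperf (χ.comp e.symm.toMonoidHom)
    refine MonoidHom.ext fun γ => ?_
    simpa using DFunLike.congr_fun h1 (e γ)

end Cfsg.Agent.E8A.Reg5.IcoEx
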