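import Cfsg.Agent.FP3.Aff.Scott
import Cfsg.Agent.Lib.VonDyck

/-!
# Fixed vectors of `A₅` in characteristic prime to 60 (helper8)

`dim V + dim V^G ≤ dim V^x + dim V^y + dim V^(xy)` for the generators `x, y` of orders 2, 3 with `xy` of order 5.
-/

set_option autoImplicit false

namespace Cfsg.Agent.E8A.Reg5.Rho

open Module
open Cfsg.Agent.FP3 (dfx fixSp mem_fixSp)
open Cfsg.Agent.Lib.VonDyck

variable {K V G : Type*} [Field K] [AddCommGroup V] [Module K V] [Group G]

theorem rep_mul (ρ : Representation K G V) (g h : G) (w : V) : ρ (g * h) w = ρ g (ρ h w) := by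
  rw [map_mul]; rfl

theorem rep_one (ρ : Representation K G V) (w : V) : ρ 1 w = w := by
  rw [map_one]; rfl

/-- the affine map `w ↦ g w + u` -/
def aff (ρ : Representation K G V) (g : G) (u : V) : Equiv.Perm V where
  toFun w := ρ g w + u
  invFun w := ρ g⁻¹ (w - u)
  left_inv w := by
    show ρ g⁻¹ (ρ g w + u - u) = w
    rw [add_sub_cancel_right, ← rep_mul, inv_mul_cancel, rep_one]
  right_inv w := by
    show ρ g (ρ g⁻¹ (w - u)) + u = w
    rw [← rep_mul, mul_inv_cancel, rep_one, sub_add_cancel]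

theorem aff_apply (ρ : Representation K G V) (g : G) (u w : V) : aff ρ g u w = ρ g w + u := rfl

theorem aff_mul (ρ : Representation K G V) (g h : G) (u v : V) : aff ρ g u * aff ρ h v = aff ρ (g * h) (ρ g v + u) := by
  ext w
  rw [Equiv.Perm.mul_apply, aff_apply, aff_apply, aff_apply, map_add, rep_mul, add_assoc]

/-- the norm map -/
def nrm (ρ : Representation K G V) (g : G) (n : ℕ) : V →ₗ[K] V := ∑ i ∈ Finset.range n, ρ (g ^ i)

theorem nrm_apply (ρ : Representation K G V) (g : G) (n : ℕ) (u : V) :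
    nrm ρ g n u = ∑ i ∈ Finset.range n, ρ (g ^ i) u := by
  rw [nrm, LinearMap.sum_apply]

theorem aff_pow (ρ : Representation K G V) (g : G) (u : V) (n : ℕ) : aff ρ g u ^ n = aff ρ (g ^ n) (nrm ρ g n u) := by
  induction n with
  | zero =>
    ext w
    rw [pow_zero, pow_zero, aff_apply, nrm_apply, rep_one, Finset.sum_range_zero, add_zero, Equiv.Perm.one_apply]
  | succ n ih => rw [pow_succ, ih, aff_mul, ← pow_succ, nrm_apply, nrm_apply, Finset.sum_range_succ, add_comm (ρ _ u)]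

theorem aff_pow_eq_one (ρ : Representation K G V) {g : G} {u : V} {n : ℕ} (hg : g ^ n = 1) (hu : nrm ρ g n u = 0) :
    aff ρ g u ^ n = 1 := by
  ext w
  rw [aff_pow, hg, hu, aff_apply, rep_one, add_zero, Equiv.Perm.one_apply]

theorem nrm_mem (ρ : Representation K G V) {g : G} {n : ℕ} (hg : g ^ n = 1) (u : V) : nrm ρ g n u ∈ fixSp (ρ g) := by
  rw [mem_fixSp, nrm_apply, map_sum]
  have h1 := Finset.sum_range_succ (fun i => ρ (g ^ i) u) n
  rw [Finset.sum_range_succ', hg, pow_zero, add_left_inj] at h1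
  rw [← h1]
  exact Finset.sum_congr rfl fun i _ => by rw [← rep_mul, ← pow_succ']

theorem exists_cob (ρ : Representation K (alternatingGroup (Fin 5)) V) (h60 : ((60 : ℕ) : K) ≠ 0) {u v : V}
    (h1 : nrm ρ a5 2 u = 0) (h2 : nrm ρ b5 3 v = 0) (h3 : nrm ρ (a5 * b5) 5 (ρ a5 v + u) = 0) :
    ∃ w, w - ρ a5 w = u ∧ w - ρ b5 w = v := by
  obtain ⟨φ, φ1, φ2⟩ := exists_hom_alternatingFive (aff_pow_eq_one ρ a5_sq h1) (aff_pow_eq_one ρ b5_pow h2)
    (by rw [aff_mul]; exact aff_pow_eq_one ρ ab5_pow h3)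
  have key : ∀ g u, φ g = aff ρ g u → ((60 : ℕ) : K)⁻¹ • ∑ a, φ a 0 - ρ g (((60 : ℕ) : K)⁻¹ • ∑ a, φ a 0) = u := by
    intro g u hg
    have e1 : ∑ a, φ a 0 = ρ g (∑ a, φ a 0) + ((60 : ℕ) : K) • u := by
      conv_lhs => rw [← Equiv.sum_comp (Equiv.mulLeft g)]
      simp only [Equiv.coe_mulLeft, map_mul, Equiv.Perm.mul_apply, hg, aff_apply]
      rw [Finset.sum_add_distrib, map_sum, Finset.sum_const, Finset.card_univ, ← Nat.card_eq_fintype_card,
        card_alternating5, Nat.cast_smul_eq_nsmul]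
    rw [map_smul, ← smul_sub]
    nth_rewrite 1 [e1]
    rw [add_sub_cancel_left, smul_smul, inv_mul_cancel₀ h60, one_smul]
  exact ⟨_, key _ _ φ1, key _ _ φ2⟩

theorem eq_zero_of_dfx [FiniteDimensional K V] (ρ : Representation K (alternatingGroup (Fin 5)) V)
    (h60 : ((60 : ℕ) : K) ≠ 0) (h : dfx (ρ a5) + dfx (ρ b5) + dfx (ρ (a5 * b5)) ≤ finrank K V) {v : V}
    (ha : ρ a5 v = v) (hb : ρ b5 v = v) : v = 0 := by
  let Φ : V × V →ₗ[K] fixSp (ρ a5) × fixSp (ρ b5) × fixSp (ρ (a5 * b5)) :=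
    (((nrm ρ a5 2).codRestrict _ (nrm_mem ρ a5_sq)).comp (LinearMap.fst K V V)).prod
      ((((nrm ρ b5 3).codRestrict _ (nrm_mem ρ b5_pow)).comp (LinearMap.snd K V V)).prod
        (((nrm ρ (a5 * b5) 5).codRestrict _ (nrm_mem ρ ab5_pow)).comp
          ((ρ a5).comp (LinearMap.snd K V V) + LinearMap.fst K V V)))
  let B : V →ₗ[K] V × V := (LinearMap.id - ρ a5).prod (LinearMap.id - ρ b5)
  have h1 : LinearMap.ker Φ ≤ LinearMap.range B := by
    rintro ⟨u, w⟩ hu
    have e := LinearMap.mem_ker.1 hu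
    obtain ⟨x, e1, e2⟩ := exists_cob ρ h60 (u := u) (v := w) (congrArg (fun t => (t.1 : V)) e)
      (congrArg (fun t => (t.2.1 : V)) e) (congrArg (fun t => (t.2.2 : V)) e)
    exact ⟨x, Prod.ext e1 e2⟩
  have h2 := Submodule.finrank_mono h1
  have h3 := Φ.finrank_range_add_finrank_ker
  have h4 := B.finrank_range_add_finrank_ker
  have h5 := (LinearMap.range Φ).finrank_le
  rw [finrank_prod] at h3
  rw [finrank_prod, finrank_prod] at h5
  have h6 : finrank K (LinearMap.ker B) = 0 := by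
    unfold dfx at h
    omega
  have h7 : v ∈ LinearMap.ker B := by
    rw [LinearMap.mem_ker]
    exact Prod.ext (sub_eq_zero.2 ha.symm) (sub_eq_zero.2 hb.symm)
  rwa [Submodule.finrank_eq_zero.1 h6] at h7

end Cfsg.Agent.E8A.Reg5.Rho
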